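import Cfsg.Agent.H49.BN2Defs

/-! BN2: sphere counts and the suboctagon count. -/

set_option autoImplicit false

namespace Cfsg.Agent.H11.BnS

open Cfsg.Agent.H49.BN2

universe u

theorem dc {α β : Type*} [Finite α] [Finite β] (s : Set α) (t : Set β) (r : α → β → Prop)
    (m n : ℕ) (hm : ∀ a ∈ s, m ≤ {b | b ∈ t ∧ r a b}.ncard)
    (hn : ∀ b ∈ t, {a | a ∈ s ∧ r a b}.ncard ≤ n) : s.ncard * m ≤ t.ncard * n := by
  classical
  have := Fintype.ofFinite α
  have := Fintype.ofFinite β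
  rw [Set.ncard_eq_toFinset_card' s, Set.ncard_eq_toFinset_card' t]
  refine Finset.card_mul_le_card_mul r (fun a ha => ?_) fun b hb => ?_
  · refine (hm a (Set.mem_toFinset.1 ha)).trans_eq ?_
    rw [Set.ncard_eq_toFinset_card']
    congr 1
    ext b
    simp [Finset.mem_bipartiteAbove]
  · refine (hn b (Set.mem_toFinset.1 hb)).trans_eq' ?_
    rw [Set.ncard_eq_toFinset_card']
    congr 1
    ext a
    simp [Finset.mem_bipartiteBelow]

variable {n : ℕ} {X : Type u} {Γ : Pol n X}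

theorem back {x y : X} {k : ℕ} (h : Γ.d x y = k + 1) : ∃ w, Γ.d y w = 1 ∧ Γ.d x w = k := by
  obtain ⟨w, h1, h2⟩ := Γ.ex y x (fun e => by rw [e, (Γ.d_zero _ _).2 rfl] at h; omega)
  rw [Γ.d_symm y x, Γ.d_symm w x] at h2
  exact ⟨w, h1, by omega⟩

theorem back_uniq {x y w w' : X} (hk : Γ.d x y < n) (h1 : Γ.d y w = 1) (h2 : Γ.d y w' = 1)
    (h3 : Γ.d x w < Γ.d x y) (h4 : Γ.d x w' < Γ.d x y) : w = w' :=
  Γ.uniq y w w' x (by rw [Γ.d_symm]; omega) h1 h2 (by rw [Γ.d_symm w, Γ.d_symm y]; omega)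
    (by rw [Γ.d_symm w', Γ.d_symm y]; omega)

theorem stp {x y : X} (z : X) (h : Γ.d x y = 1) :
    Γ.d z y = Γ.d z x + 1 ∨ Γ.d z x = Γ.d z y + 1 := by
  rw [Γ.d_symm z, Γ.d_symm z]; exact Γ.step x y z h

theorem sph : SphStmt.{u} := by
  intro n X _ Γ _ b
  refine ⟨fun a k m hk hq => ?_, fun F a k m hk hq => ?_⟩
  · have := dc {v | Γ.d a v = k + 1} {w | Γ.d a w = k} (fun v w => Γ.d v w = 1) 1 m
      (fun v hv => ?_) fun w hw => ?_
    · rwa [mul_one] at this
    · obtain ⟨w, h1, h2⟩ := back (Γ := Γ) hv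
      exact (Set.ncard_pos (Set.toFinite _)).2 ⟨w, h2, h1⟩
    · obtain ⟨k, rfl⟩ : ∃ j, k = j + 1 := ⟨k - 1, by omega⟩
      obtain ⟨y, h1, h2⟩ := back (Γ := Γ) hw
      refine le_trans (Set.ncard_le_ncard (t := Γ.nb w \ {y}) ?_ (Set.toFinite _)) ?_
      · rintro v ⟨hv, hv'⟩
        refine ⟨(Γ.d_symm _ _).trans hv', fun e => ?_⟩
        have e : v = y := e
        have hv : Γ.d a v = k + 1 + 1 := hv
        rw [e] at hv
        omega
      · rw [b.card_nb w y h1]; exact hq w hw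
  · have := dc {w | w ∈ F ∧ Γ.d a w = k} {v | v ∈ F ∧ Γ.d a v = k + 1} (fun w v => Γ.d w v = 1) m 1
      (fun w hw => ?_) fun v hv => ?_
    · rwa [mul_one] at this
    · have h1 := hq w hw.1 hw.2
      have h2 : {y | Γ.d w y = 1 ∧ Γ.d a y < Γ.d a w}.ncard ≤ 1 :=
        (Set.ncard_le_one (Set.toFinite _)).2 fun y hy y' hy' =>
          back_uniq (by rw [hw.2]; omega) hy.1 hy'.1 hy.2 hy'.2
      have h3 : Γ.nb w ∩ F ⊆ {v | v ∈ {v | v ∈ F ∧ Γ.d a v = k + 1} ∧ Γ.d w v = 1} ∪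
          {y | Γ.d w y = 1 ∧ Γ.d a y < Γ.d a w} := fun v hv => by
        rcases stp a hv.1 with e | e
        · exact .inl ⟨⟨hv.2, by rw [e, hw.2]⟩, hv.1⟩
        · exact .inr ⟨hv.1, by omega⟩
      have := (Set.ncard_le_ncard h3 (Set.toFinite _)).trans (Set.ncard_union_le _ _)
      omega
    · refine (Set.ncard_le_one (Set.toFinite _)).2 fun y hy y' hy' => ?_
      exact back_uniq (x := a) (y := v) (by rw [hv.2]; exact hk) ((Γ.d_symm _ _).trans hy.2)
        ((Γ.d_symm _ _).trans hy'.2) (by rw [hv.2, hy.1.2]; omega) (by rw [hv.2, hy'.1.2]; omega)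

/-- The vertices whose geodesic from `P` does not start in `F`. -/
def Out (Γ : Pol n X) (F : Set X) (P : X) : Set X :=
  {v | ∀ w ∈ F, Γ.d P w = 1 → Γ.d P v < Γ.d w v}

theorem out_nb (b : Γ.Bas) {F : Set X} {P w : X} (hw : w ∈ Out Γ F P) (h1 : 1 ≤ Γ.d P w)
    (hn : Γ.d P w + 1 < n) : Γ.nb w ⊆ Out Γ F P := fun v hv y hy hP => by
  have hv : Γ.d w v = 1 := hv
  have a1 := hw y hy hP
  have a2 := Γ.step P y v hP
  have a3 := b.tri y v w
  rw [Γ.d_symm v w] at a3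
  by_contra hc
  rcases stp P hv with e | e
  · obtain ⟨x, x1, x2⟩ := back (Γ := Γ) (x := y) (y := v) (k := Γ.d P w - 1) (by omega)
    have a4 := b.tri P y x
    have : x = w := back_uniq (x := P) (y := v) (by omega) x1 ((Γ.d_symm _ _).trans hv)
      (by omega) (by omega)
    rw [this] at x2
    omega
  · omega

theorem card_nb [Finite X] (b : Γ.Bas) (x : X) : (Γ.nb x).ncard = Γ.q x + 1 := by
  have := b.two_le_q x
  unfold Pol.q at *
  omega

theorem arith {s t c : ℕ} (hs : 2 ≤ s) (h1 : t ≤ s ^ 2) (h2 : 2 * s ≤ t) (h3 : t ≤ 2 * c)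
    (h : (s + 1) * s ^ 6 * (c * s * t) ≤
      (t + 1) + (t + 1) * (s * t) + (t + 1) * (s * t) ^ 2 + (t + 1) * (s * t) ^ 3) : False := by
  have t4 : 4 ≤ t := by omega
  obtain ⟨u, hu⟩ : ∃ u, u = s * t := ⟨_, rfl⟩
  have u8 : 8 ≤ u := by rw [hu]; nlinarith
  have a1 : 512 * (1 + u + u ^ 2 + u ^ 3) ≤ 585 * u ^ 3 := by
    have b1 : 8 * u ^ 2 ≤ u ^ 3 := by nlinarith
    have b2 : 8 * u ≤ u ^ 2 := by nlinarith
    omega
  have a2 : 4 * (t + 1) ≤ 5 * t := by omega
  have a3 : 2048 * ((t + 1) * (1 + u + u ^ 2 + u ^ 3)) ≤ 2925 * (t * u ^ 3) := by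
    calc _ = (4 * (t + 1)) * (512 * (1 + u + u ^ 2 + u ^ 3)) := by ring
      _ ≤ (5 * t) * (585 * u ^ 3) := Nat.mul_le_mul a2 a1
      _ = _ := by ring
  have a4 : t * u ^ 3 ≤ s ^ 7 * t ^ 2 := by
    calc _ = s ^ 3 * t ^ 2 * (t * t) := by rw [hu]; ring
      _ ≤ s ^ 3 * t ^ 2 * (s ^ 2 * s ^ 2) := Nat.mul_le_mul_left _ (Nat.mul_le_mul h1 h1)
      _ = _ := by ring
  have a5 : 3 * (s ^ 7 * t ^ 2) ≤ 2 * ((s + 1) * s ^ 6 * (c * s * t)) := by
    calc _ = 3 * t * (s ^ 7 * t) := by ring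
      _ ≤ (s + 1) * (2 * c) * (s ^ 7 * t) :=
        Nat.mul_le_mul_right _ (Nat.mul_le_mul (by omega) h3)
      _ = _ := by ring
  have a6 : 0 < s ^ 7 * t ^ 2 := by positivity
  have a7 : (t + 1) + (t + 1) * (s * t) + (t + 1) * (s * t) ^ 2 + (t + 1) * (s * t) ^ 3 =
      (t + 1) * (1 + u + u ^ 2 + u ^ 3) := by rw [hu]; ring
  omega

theorem o8c : O8cStmt.{u} := by
  intro n X _ Γ _ hn b S F l s t hF hl hs ht hts fl fp
  subst hn
  have d0 : Γ.d l l = 0 := (Γ.d_zero _ _).2 rfl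
  have ql : Γ.q l = s := hs l (by rw [d0]; exact Even.zero)
  have s2 : 2 ≤ s := ql ▸ b.two_le_q l
  obtain ⟨P0, hP0, -⟩ := Γ.thick l l l
  have lF := fl l hl (by rw [d0]; exact Even.zero)
  have h2 : 2 * s ≤ t := by
    have := fp P0 (lF hP0) (by rw [hP0]; exact odd_one)
    omega
  -- the points of `F`
  have ge : ∀ k, k + 1 < 8 → {w | w ∈ F ∧ Γ.d l w = k}.ncard * s ≤
      {v | v ∈ F ∧ Γ.d l v = k + 1}.ncard := fun k hk => S.ge F l k s hk fun w hw _ => by
    rcases Nat.even_or_odd (Γ.d l w) with e | e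
    · rw [Set.inter_eq_left.2 (fl w hw e), card_nb b, hs w e]
    · exact (fp w hw e).1
  have g1 : {v | v ∈ F ∧ Γ.d l v = 1}.ncard = s + 1 := by
    rw [← ql, ← card_nb b]
    congr 1
    exact Set.ext fun v => ⟨fun h => h.2, fun h => ⟨lF h, h⟩⟩
  have gk : ∀ k, k ≤ 6 → (s + 1) * s ^ k ≤ {v | v ∈ F ∧ Γ.d l v = k + 1}.ncard := by
    intro k
    induction k with
    | zero => intro _; rw [zero_add, g1]; simp
    | succ k ih =>
      intro hk
      refine le_trans ?_ (ge (k + 1) (by omega))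
      rw [pow_succ, ← mul_assoc]
      exact Nat.mul_le_mul_right _ (ih (by omega))
  -- all lines
  have par0 : ∀ v, Even (Γ.d l v + Γ.d P0 v + 1) := fun v => by
    have := b.par l v P0
    rwa [hP0, Γ.d_symm v P0] at this
  have m1 : {v | Γ.d P0 v = 1}.ncard = t + 1 := by
    rw [← ht P0 (by rw [hP0]; exact odd_one), ← card_nb b]; rfl
  have le2 : ∀ k, {v | Γ.d P0 v = 2 * k + 1 + 1 + 1}.ncard ≤
      {v | Γ.d P0 v = 2 * k + 1}.ncard * (s * t) := fun k => by
    refine (S.le P0 (2 * k + 1 + 1) t (by omega) fun w hw => (ht w ?_).le).trans ?_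
    · have := par0 w
      rw [hw, Nat.even_iff] at this
      rw [Nat.odd_iff]; omega
    · rw [← mul_assoc]
      refine Nat.mul_le_mul_right _ (S.le P0 (2 * k + 1) s (by omega) fun w hw => (hs w ?_).le)
      have := par0 w
      rw [hw, Nat.even_iff] at this
      rw [Nat.even_iff]; omega
  have mk : ∀ k, {v | Γ.d P0 v = 2 * k + 1}.ncard ≤ (t + 1) * (s * t) ^ k := by
    intro k
    induction k with
    | zero => simp [m1]
    | succ k ih =>
      refine (le2 k).trans ?_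
      rw [pow_succ, ← mul_assoc (t + 1)]
      exact Nat.mul_le_mul_right _ ih
  have mL : {v | Odd (Γ.d P0 v)}.ncard ≤
      (t + 1) + (t + 1) * (s * t) + (t + 1) * (s * t) ^ 2 + (t + 1) * (s * t) ^ 3 := by
    have hsub : {v | Odd (Γ.d P0 v)} ⊆ {v | Γ.d P0 v = 2 * 0 + 1} ∪ {v | Γ.d P0 v = 2 * 1 + 1} ∪
        {v | Γ.d P0 v = 2 * 2 + 1} ∪ {v | Γ.d P0 v = 2 * 3 + 1} := fun v hv => by
      have h1 : Γ.d P0 v % 2 = 1 := Nat.odd_iff.1 hv
      have h2 := Γ.d_le P0 v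
      simp only [Set.mem_union, Set.mem_setOf_eq]
      omega
    refine (Set.ncard_le_ncard hsub (Set.toFinite _)).trans ?_
    refine (Set.ncard_union_le _ _).trans (Nat.add_le_add ((Set.ncard_union_le _ _).trans
      (Nat.add_le_add ((Set.ncard_union_le _ _).trans (Nat.add_le_add ?_ ?_)) (mk 2))) (mk 3))
    · simpa using mk 0
    · simpa using mk 1
  have key := dc {v | v ∈ F ∧ Γ.d l v = 6 + 1} {v | Odd (Γ.d P0 v)}
    (fun P v => v ∈ Out Γ F P ∧ Γ.d P v = 3) ((t + 1) / 2 * s * t) 1 (fun P hP => ?_)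
    fun v _ => ?_
  · rw [mul_one] at key
    exact arith s2 hts h2 (c := (t + 1) / 2) (by omega)
      ((Nat.mul_le_mul_right _ (gk 6 le_rfl)).trans (key.trans mL))
  · have oP : Odd (Γ.d l P) := by rw [hP.2]; decide
    have parP : ∀ v, Even (Γ.d l v + Γ.d P v + 7) := fun v => by
      have := b.par l v P
      rwa [hP.2, Γ.d_symm v P] at this
    have c1 : (t + 1) / 2 ≤ {w | w ∈ Out Γ F P ∧ Γ.d P w = 1}.ncard := by
      have e1 := (fp P hP.1 oP).2
      have e2 := card_nb b P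
      rw [ht P oP] at e2
      have e3 : Γ.nb P ⊆ (Γ.nb P ∩ F) ∪ {w | w ∈ Out Γ F P ∧ Γ.d P w = 1} := fun w hw => by
        by_cases h : w ∈ F
        · exact .inl ⟨hw, h⟩
        · refine .inr ⟨fun y hy hy' => ?_, hw⟩
          have hw : Γ.d P w = 1 := hw
          have f1 := Γ.step P y w hy'
          have f2 : Γ.d y w ≠ 0 := fun e => h ((Γ.d_zero _ _).1 e ▸ hy)
          omega
      have := (Set.ncard_le_ncard e3 (Set.toFinite _)).trans (Set.ncard_union_le _ _)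
      omega
    have c2 := S.ge (Out Γ F P) P 1 s (by omega) fun w hw e => by
      rw [Set.inter_eq_left.2 (out_nb b hw (by omega) (by omega)), card_nb b, hs w]
      have := parP w
      rw [e, Nat.even_iff] at this
      rw [Nat.even_iff]; omega
    have c3 := S.ge (Out Γ F P) P 2 t (by omega) fun w hw e => by
      rw [Set.inter_eq_left.2 (out_nb b hw (by omega) (by omega)), card_nb b, ht w]
      have := parP w
      rw [e, Nat.even_iff] at this
      rw [Nat.odd_iff]; omega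
    refine ((Nat.mul_le_mul_right _ ((Nat.mul_le_mul_right _ c1).trans c2)).trans c3).trans
      (Set.ncard_le_ncard (fun v hv => ⟨?_, hv⟩) (Set.toFinite _))
    have e1 := parP v
    have e2 := par0 v
    rw [hv.2, Nat.even_iff] at e1
    rw [Nat.even_iff] at e2
    exact Nat.odd_iff.2 (by omega)
  · refine (Set.ncard_le_one (Set.toFinite _)).2 fun P hP P' hP' => ?_
    by_contra hne
    have e1 : Γ.d P v = 3 := hP.2.2
    have e2 : Γ.d P' v = 3 := hP'.2.2
    have e3 := b.tri P v P'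
    rw [Γ.d_symm v P'] at e3
    obtain ⟨y, y1, y2⟩ := Γ.ex P P' hne
    have yF : y ∈ F := hF P hP.1.1 P' hP'.1.1 y (by omega) (by omega)
    obtain ⟨w, w1, w2⟩ := back (Γ := Γ) (x := v) (y := P) (k := 2) ((Γ.d_symm _ _).trans e1)
    have wF : w ∉ F := fun h => by
      have := hP.2.1 w h w1
      rw [Γ.d_symm w v] at this
      omega
    by_cases h6 : Γ.d P P' = 6
    · have f1 := b.tri w v P'
      have f2 := b.tri P w P'
      rw [Γ.d_symm w v, Γ.d_symm v P'] at f1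
      exact wF (hF P hP.1.1 P' hP'.1.1 w (by omega) (by omega))
    · have := b.glue v w P y P' w1 y1 (fun e => wF (e ▸ yF)) (by rw [Γ.d_symm v P]; omega) y2
        (by rw [Γ.d_symm v P]; omega)
      rw [Γ.d_symm v P, Γ.d_symm v P'] at this
      omega

end Cfsg.Agent.H11.BnS
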