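import Mathlib
import Cfsg.Agent.H83.Syl
import Cfsg.Prelude.Def_Classical
import Cfsg.Prelude.Def_LieTwisted

/-! Project CY (row S3256): setting, chapters and the induction.
Paper proof: `stubs/notes/h11_s3256.md`.  Conjugation is `g * a * g⁻¹`. -/

set_option autoImplicit false

namespace Cfsg.Agent.H11.Cy

open Subgroup MulAction

section Defs
variable {G : Type} [Group G] {Ω : Type} [MulAction G Ω]

/-- `X` is doubly transitive on `Φ` -/
def Tr2 (X : Subgroup G) (Φ : Set Ω) : Prop :=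
  ∀ x ∈ Φ, ∀ y ∈ Φ, ∀ x' ∈ Φ, ∀ y' ∈ Φ, x ≠ y → x' ≠ y' → ∃ g ∈ X, g • x = x' ∧ g • y = y'

/-- the setting: `A x` is normal of order `p` in the stabiliser of `x` -/
structure St (p : ℕ) (A : Ω → Subgroup G) : Prop where
  pp : p.Prime
  faith : ∀ g : G, (∀ x : Ω, g • x = x) → g = 1
  two : Tr2 (⊤ : Subgroup G) (Set.univ : Set Ω)
  nt : Nontrivial Ω
  card : ∀ x, Nat.card (A x) = p
  fix : ∀ x, ∀ a ∈ A x, a • x = x
  eqv : ∀ (g : G) x, ∀ a ∈ A x, g * a * g⁻¹ ∈ A (g • x)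
  semi : ∀ x y, ∀ a ∈ A x, a • y = y → a = 1 ∨ y = x

/-- regular normal subgroup -/
def RNS (G : Type) [Group G] (Ω : Type) [MulAction G Ω] : Prop :=
  ∃ N : Subgroup G, N.Normal ∧ IsPretransitive N Ω ∧ ∀ x : Ω, stabilizer N x = ⊥

def IsL2 (M : Type) [Group M] (q : ℕ) : Prop := ∃ (F : Type) (_ : Field F) (_ : Fintype F),
  Fintype.card F = q ∧ Nonempty (M ≃* Matrix.ProjectiveSpecialLinearGroup (Fin 2) F)
def IsSL2 (M : Type) [Group M] (q : ℕ) : Prop := ∃ (F : Type) (_ : Field F) (_ : Fintype F),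
  Fintype.card F = q ∧ Nonempty (M ≃* Matrix.SpecialLinearGroup (Fin 2) F)
def IsU3 (M : Type) [Group M] (q : ℕ) : Prop := ∃ (F : Type) (_ : Field F) (_ : Fintype F),
  Fintype.card F = q ^ 2 ∧ Nonempty (M ≃* Cfsg.PSU 3 F q)
def IsR3 (M : Type) [Group M] : Prop := ∃ (K : Type) (_ : Field K) (_ : Fintype K),
  Fintype.card K = 3 ∧ Nonempty (M ≃* ↥(Cfsg.Lie.twistedG2 K 1))

/-- the conclusion -/
def Concl (p : ℕ) (A : Ω → Subgroup G) : Prop :=
  RNS G Ω ∨ ∃ M : Subgroup G, M.Normal ∧ IsSimpleGroup M ∧ (∀ x, A x ≤ M) ∧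
    (∃ x, ∃ h ∈ M, h • x = x ∧ h ∉ centralizer (A x : Set G)) ∧
    ((5 ≤ p ∧ Nat.card Ω = p + 1 ∧ IsL2 M p) ∨ (Nat.card Ω = p ^ 3 + 1 ∧ IsU3 M p) ∨
      (p = 3 ∧ Nat.card Ω = 28 ∧ IsL2 M 8 ∧ IsR3 G))

/-- no proper doubly transitive normal subgroup contains all `A x` -/
def Min (A : Ω → Subgroup G) : Prop :=
  ∀ N : Subgroup G, N.Normal → (∀ x, A x ≤ N) → Tr2 N (Set.univ : Set Ω) → N = ⊤

/-- the group of a line -/
abbrev Fl (A : Ω → Subgroup G) (x y : Ω) : Subgroup G := A x ⊔ A y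
/-- the points of a line -/
def Ln (A : Ω → Subgroup G) (x y : Ω) : Set Ω := {z | A z ≤ Fl A x y}
/-- the two-point stabiliser -/
abbrev Hs (G : Type) [Group G] [MulAction G Ω] (x y : Ω) : Subgroup G :=
  stabilizer G x ⊓ stabilizer G y
/-- the centraliser of the group of a line -/
abbrev Kl (A : Ω → Subgroup G) (x y : Ω) : Subgroup G := centralizer (Fl A x y : Set G)

def One (A : Ω → Subgroup G) : Prop := ∀ x y, x ≠ y → Ln A x y = Set.univ
def Multi (A : Ω → Subgroup G) : Prop := ∀ x y, x ≠ y → Ln A x y ≠ Set.univ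

def TyO (A : Ω → Subgroup G) : Prop := ∀ x y, x ≠ y → Odd (Nat.card (Fl A x y))
def Ty2 (A : Ω → Subgroup G) : Prop := ∀ x y, x ≠ y → ∃ R : Subgroup G, IsPGroup 2 R ∧
  Fl A x y ≤ normalizer (R : Set G) ∧ Fl A x y = R ⊔ A x
def TyL (p : ℕ) (A : Ω → Subgroup G) : Prop :=
  5 ≤ p ∧ ∀ x y, x ≠ y → IsL2 (Fl A x y) p ∧ (Ln A x y).ncard = p + 1
def TyS (p : ℕ) (A : Ω → Subgroup G) : Prop :=
  ∀ x y, x ≠ y → IsSL2 (Fl A x y) p ∧ (Ln A x y).ncard = p + 1
def Ty8 (p : ℕ) (A : Ω → Subgroup G) : Prop :=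
  p = 3 ∧ ∀ x y, x ≠ y → IsL2 (Fl A x y) 8 ∧ (Ln A x y).ncard = 28

/-- basic facts on lines (piece EPS) -/
structure Eps (A : Ω → Subgroup G) : Prop where
  /-- an element fixing two points and centralising one group centralises the other -/
  eps : ∀ x y, x ≠ y → ∀ h ∈ Hs G x y, h ∈ centralizer (A x : Set G) → h ∈ Kl A x y
  /-- the centraliser of a line group is the pointwise stabiliser of the line -/
  kfix : ∀ x y, x ≠ y → ∀ h : G, h ∈ Kl A x y ↔ ∀ z ∈ Ln A x y, h • z = z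
  /-- two points of a line span it -/
  span : ∀ x y, x ≠ y → ∀ z ∈ Ln A x y, ∀ w ∈ Ln A x y, z ≠ w → Fl A z w = Fl A x y
  /-- the normaliser of a line group is the stabiliser of the line, doubly transitive on it -/
  nrm : ∀ x y, x ≠ y → ∀ g : G, g ∈ normalizer (Fl A x y : Set G) ↔
    ∀ z ∈ Ln A x y, g • z ∈ Ln A x y
  tr : ∀ x y, x ≠ y → Tr2 (normalizer (Fl A x y : Set G)) (Ln A x y)
  /-- an element normalises `A x` iff it fixes `x` -/
  nA : ∀ x (g : G), g ∈ normalizer (A x : Set G) ↔ g • x = x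

end Defs

/-- a statement on all systems -/
def All (X : ∀ (G : Type) [Group G] (Ω : Type) [MulAction G Ω], ℕ → (Ω → Subgroup G) → Prop) : Prop :=
  ∀ (G : Type) [Group G] [Finite G] (Ω : Type) [Finite Ω] [MulAction G Ω] (p : ℕ)
    (A : Ω → Subgroup G), St p A → X G Ω p A

/-- the induction hypothesis -/
def IH (n : ℕ) : Prop := All fun G _ _ _ p A => Nat.card G < n → Concl p A

/-- a minimal counterexample -/
structure Mc {G : Type} [Group G] {Ω : Type} [MulAction G Ω] (p : ℕ) (A : Ω → Subgroup G) : Prop where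
  p2 : p ≠ 2
  ih : IH (Nat.card G)
  min : Min A
  nr : ¬ RNS G Ω
  ep : Eps A

def MainStmt : Prop := All fun _ _ _ _ p A => Concl p A

/-! ### general pieces -/

/-- **RES** restriction to a subsystem -/
def ResStmt : Prop := All fun G _ Ω _ p A => ∀ (X : Subgroup G) (Φ : Set Ω),
  (∀ g ∈ X, ∀ z ∈ Φ, g • z ∈ Φ) → (∀ z ∈ Φ, A z ≤ X) → Tr2 X Φ → Φ.Nontrivial →
  ∃ (Y : Type) (_ : Group Y) (_ : Finite Y) (_ : MulAction Y Φ) (π : X →* Y) (B : Φ → Subgroup Y),
    Function.Surjective π ∧ (∀ (g : X) (z : Φ), ((π g • z : Φ) : Ω) = (g : G) • (z : Ω)) ∧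
    (∀ z : Φ, B z = ((A z).subgroupOf X).map π) ∧ St p B
/-- **OLE** -/
def OleStmt : Prop := All fun G _ _ _ _ A => One A → ∀ x y, x ≠ y → ∀ h ∈ Hs G x y,
  h ∈ centralizer (A x : Set G) → h = 1
/-- **EPS** -/
def EpsStmt : Prop := All fun _ _ _ _ _ A => Eps A
/-- **P2** -/
def P2Stmt : Prop := All fun G _ Ω _ p _ => p = 2 → RNS G Ω
/-- **ODD** -/
def OddStmt : Prop := All fun G _ Ω _ p A => p ≠ 2 → TyO A → RNS G Ω
/-- **UP** -/
def UpStmt : Prop := All fun G _ _ _ p A => IH (Nat.card G) → ¬ Min A → Concl p A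
/-- **CLS** -/
def ClsStmt : Prop := All fun _ _ _ _ p A => Mc p A → Multi A →
  TyO A ∨ Ty2 A ∨ TyL p A ∨ TyS p A ∨ Ty8 p A

/-! ### chapters -/

/-- **CG** cyclic two-point stabiliser -/
def CgStmt : Prop := All fun G _ _ _ p A => Mc p A →
  (∀ x y, x ≠ y → IsCyclic (Hs G x y) ∧ Odd (Nat.card (Kl A x y))) → Concl p A
/-- **OL** -/
def OlStmt : Prop := All fun _ _ _ _ p A => Mc p A → One A → Concl p A
/-- **LP** -/
def LpStmt : Prop := All fun _ _ _ _ p A => Mc p A → Multi A → TyL p A → Concl p A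
/-- **SP** -/
def SpStmt : Prop := All fun _ _ _ _ p A => Mc p A → Multi A → TyS p A → Concl p A
/-- **L8** -/
def L8Stmt : Prop := All fun _ _ _ _ p A => Mc p A → Multi A → Ty8 p A → Concl p A
/-- **IV** -/
def IvStmt : Prop := All fun _ _ _ _ p A => Mc p A → Multi A → Ty2 A → TyS p A

theorem main (eps : EpsStmt) (p2 : P2Stmt) (od : OddStmt) (up : UpStmt) (cls : ClsStmt)
    (ol : OlStmt) (lp : LpStmt) (sp : SpStmt) (l8 : L8Stmt) (iv : IvStmt) : MainStmt := by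
  have key : ∀ n, IH n := by
    intro n
    induction n with
    | zero => intro G _ _ Ω _ _ p A _ h; exact absurd h (Nat.not_lt_zero _)
    | succ n ih =>
      intro G _ _ Ω _ _ p A h hn
      have ih' : IH (Nat.card G) := fun G' _ _ Ω' _ _ p' A' h' hn' =>
        ih G' Ω' p' A' h' (lt_of_lt_of_le hn' (Nat.lt_succ_iff.1 hn))
      by_cases hr : RNS G Ω
      · exact Or.inl hr
      by_cases hm : Min A
      swap
      · exact up G Ω p A h ih' hm
      have hp : p ≠ 2 := fun e => hr (p2 G Ω p A h e)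
      have mc : Mc p A := ⟨hp, ih', hm, hr, eps G Ω p A h⟩
      by_cases h1 : One A
      · exact ol G Ω p A h mc h1
      have hml : Multi A := by
        intro x y hxy e
        apply h1
        intro z w hzw
        have := mc.ep.span x y hxy z (e ▸ trivial) w (e ▸ trivial) hzw
        rw [← e]
        exact Set.ext fun t => by simp only [Ln, Set.mem_ofPred_eq, this]
      rcases cls G Ω p A h mc hml with t | t | t | t | t
      · exact absurd (od G Ω p A h hp t) hr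
      · exact sp G Ω p A h mc hml (iv G Ω p A h mc hml t)
      · exact lp G Ω p A h mc hml t
      · exact sp G Ω p A h mc hml t
      · exact l8 G Ω p A h mc hml t
  intro G _ _ Ω _ _ p A h
  exact key _ G Ω p A h (Nat.lt_succ_self _)

/-- the row in the lowest universe -/
def Row (G : Type*) [Group G] (Ω : Type*) [Fintype Ω] [MulAction G Ω] (Q : Subgroup G) : Prop :=
    (∃ N : Subgroup G, N.Normal ∧ MulAction.IsPretransitive ↥N Ω ∧ ∀ x : Ω, MulAction.stabilizer ↥N x = ⊥) ∨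
      (∃ (F : Type) (_ : Field F) (_ : Fintype F), Fintype.card Ω = Fintype.card F + 1 ∧
        Nonempty (↥(Subgroup.normalClosure (Q : Set G)) ≃* Matrix.ProjectiveSpecialLinearGroup (Fin 2) F)) ∨
      (∃ (F : Type) (_ : Field F) (_ : Fintype F) (q : ℕ), Fintype.card F = q ^ 2 ∧ Fintype.card Ω = q ^ 3 + 1 ∧
        Nonempty (↥(Subgroup.normalClosure (Q : Set G)) ≃* Cfsg.PSU 3 F q)) ∨
      (Fintype.card Ω = 28 ∧ (∃ (F : Type) (_ : Field F) (_ : Fintype F), Fintype.card F = 8 ∧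
          Nonempty (↥(Subgroup.normalClosure (Q : Set G)) ≃* Matrix.ProjectiveSpecialLinearGroup (Fin 2) F)) ∧
        ∃ (K : Type) (_ : Field K) (_ : Fintype K), Fintype.card K = 3 ∧ Nonempty (G ≃* ↥(Cfsg.Lie.twistedG2 K 1)))

def RowStmt.{u, v} : Prop := ∀ (G : Type u) [Group G] [Finite G] (Ω : Type v) [Fintype Ω]
  [MulAction G Ω] [FaithfulSMul G Ω], MulAction.IsMultiplyPretransitive G Ω 2 →
  ∀ (α : Ω) (Q : Subgroup G), Q ≤ MulAction.stabilizer G α →
    (Q.subgroupOf (MulAction.stabilizer G α)).Normal → Q ≠ ⊥ → IsCyclic ↥Q → Row G Ω Q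

/-- **FIN** -/
def FinStmt : Prop := MainStmt → RowStmt.{0, 0}
/-- **TR** -/
def TrStmt.{u, v} : Prop := RowStmt.{0, 0} → RowStmt.{u, v}

end Cfsg.Agent.H11.Cy
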