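import Cfsg.Agent.H11.CyLp

/-! Project CY, chapter LP, part A (`p ≡ 1 mod 4`, `K` of even order). -/

set_option autoImplicit false

namespace Cfsg.Agent.H11.Cy.Lp

open Subgroup MulAction
open Cfsg.Agent.H11.EL (Nm Ct C1 cj Ex R1 SC OS WS CL2)

section Defs
variable {G : Type} [Group G] {Ω : Type} [MulAction G Ω]

/-- an involution centralising a line group -/
def Ax (A : Ω → Subgroup G) (t : G) : Prop := orderOf t = 2 ∧ ∃ x y, x ≠ y ∧ t ∈ Kl A x y

structure AX (A : Ω → Subgroup G) : Prop where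
  cj : ∀ t g : G, Ax A t → Ax A (g * t * g⁻¹)
  out : ∀ x y, x ≠ y → ∀ t ∈ Nm (Fl A x y), Ax A t → t ∈ Kl A x y ⊔ Fl A x y → t ∈ Kl A x y
  cen : ∀ x y, x ≠ y → ∀ t ∈ Kl A x y, orderOf t = 2 → ∀ g : G, Commute g t → g ∈ Nm (Fl A x y)
  ti : ∀ x y x' y', x ≠ y → x' ≠ y' → ∀ t ∈ Kl A x y, orderOf t = 2 → t ∈ Kl A x' y' →
    Fl A x y = Fl A x' y'

/-- outer involutions in the same coset of `L` are conjugate under `L` -/
def OC (A : Ω → Subgroup G) : Prop := ∀ x y, x ≠ y → ∀ w ∈ Nm (Fl A x y), w * w = 1 →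
  w ∉ Kl A x y ⊔ Fl A x y → (∃ z ∈ Fl A x y, orderOf z = 2 ∧ Commute z w) ∧
    ∀ l ∈ Fl A x y, (l * w) * (l * w) = 1 → ∃ g ∈ Fl A x y, g * w * g⁻¹ = l * w

/-- the configuration -/
structure UK (A : Ω → Subgroup G) (x y x' y' : Ω) (u : G) : Prop where
  xy : x ≠ y
  xy' : x' ≠ y'
  ne : Fl A x' y' ≠ Fl A x y
  uK : u ∈ Kl A x' y'
  uo : orderOf u = 2
  uN : u ∈ Nm (Fl A x y)
  out : u ∉ Kl A x y ⊔ Fl A x y

end Defs

def AaStmt : Prop := All fun _ _ _ _ p A => L2 p A → p % 4 = 1 → AX A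
def AbStmt : Prop := All fun _ _ _ _ p A => L2 p A → p % 4 = 1 → OC A
def AcStmt : Prop := All fun _ _ _ _ p A => L2 p A → AX A → OC A → ∀ x y x' y' u,
  UK A x y x' y' u → ∀ k ∈ Kl A x y, orderOf k = 2 → Commute k u → ¬ Ax A (u * k)
def AdStmt : Prop := All fun _ _ _ _ p A => L2 p A → AX A → ∀ x y x' y' u,
  UK A x y x' y' u → (∀ k ∈ Kl A x y, orderOf k = 2 → Commute k u → ¬ Ax A (u * k)) →
  Even (Nat.card (Kl A x y)) →
  ¬ 4 ∣ Nat.card (Kl A x y) ∧ ∃ k ∈ Kl A x y, orderOf k = 2 ∧ Commute k u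
/-- a Sylow 2-subgroup `⟨k⟩ × T` -/
def AeStmt : Prop := All fun G _ _ _ p A => L2 p A → p % 4 = 1 → AX A → ∀ x y, x ≠ y →
  ∀ w ∈ Nm (Fl A x y), w * w = 1 → w ∉ Kl A x y ⊔ Fl A x y → ∀ k ∈ Kl A x y, orderOf k = 2 →
  Commute k w → ¬ 4 ∣ Nat.card (Kl A x y) →
  ∃ (S : Sylow 2 G) (T : Subgroup G), T ≤ Fl A x y ⊔ zpowers w ∧ T ≤ S ∧ T.relIndex S = 2 ∧
    k ∈ (S : Subgroup G) ∧ k ∉ T

theorem a_of (aa : AaStmt) (ab : AbStmt) (ac : AcStmt) (ad : AdStmt) (ae : AeStmt)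
    (tr : ∀ {G : Type} [Group G] [Finite G] (P : Sylow 2 G) (Q : Subgroup G), Q ≤ (P : Subgroup G) →
      Q.relIndex (P : Subgroup G) = 2 → ∀ u : G, orderOf u = 2 → u ∈ (P : Subgroup G) → u ∉ Q →
      (∃ M : Subgroup G, M.Normal ∧ M.index = 2 ∧ u ∉ M) ∨ ∃ g : G, g * u * g⁻¹ ∈ Q) : AStmt := by
  intro G _ _ Ω _ _ p A h l h1 x y hxy
  by_contra hodd
  have ev := Nat.not_odd_iff_even.1 hodd
  have ax := aa G Ω p A h l h1
  have oc := ab G Ω p A h l h1
  have la := l.la x y hxy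
  obtain ⟨x', y', hxy', hne, u, uK, uo, uN, uf⟩ := l.te x y hxy ev
  have u2 : u * u = 1 := by rw [← sq, ← uo, pow_orderOf_eq_one]
  have unK : u ∉ Kl A x y := fun e => uf x la.mx ((l.mc.ep.kfix x y hxy u).1 e x la.mx)
  have uout : u ∉ Kl A x y ⊔ Fl A x y := fun e => by
    obtain ⟨z, hz, e'⟩ := (((l.lv x y hxy).par u uN (u2 ▸ one_mem _) unK).2 h1).1 e
    exact uf z hz e'
  have uk : UK A x y x' y' u := ⟨hxy, hxy', hne, uK, uo, uN, uout⟩
  have c := ac G Ω p A h l ax oc x y x' y' u uk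
  obtain ⟨h4, k, kK, ko, ku⟩ := ad G Ω p A h l ax x y x' y' u uk c ev
  have k2 : k * k = 1 := by rw [← sq, ← ko, pow_orderOf_eq_one]
  have kN : k ∈ Nm (Fl A x y) := centralizer_le_normalizer _ kK
  have wN : u * k ∈ Nm (Fl A x y) := mul_mem uN kN
  have w2 : (u * k) * (u * k) = 1 := by
    rw [mul_assoc, ← mul_assoc k, ku.eq, mul_assoc, k2, mul_one, u2]
  have wout : u * k ∉ Kl A x y ⊔ Fl A x y := fun e =>
    uout (by simpa using mul_mem e (inv_mem (mem_sup_left kK)))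
  obtain ⟨S, T, hT, hTS, hi, kS, kT⟩ := ae G Ω p A h l h1 ax x y hxy _ wN w2 wout k kK ko
    (ku.mul_right (Commute.refl k)) h4
  rcases tr S T hTS hi k ko kS kT with ⟨M, hM, hi2, kM⟩ | ⟨g, hg⟩
  · exact kM (l.no2 M hM hi2 x y hxy ⟨(l.mc.ep.kfix x y hxy k).1 kK x la.mx,
      (l.mc.ep.kfix x y hxy k).1 kK y la.my⟩)
  have ak : Ax A (g * k * g⁻¹) := ax.cj k g ⟨ko, x, y, hxy, kK⟩
  have key : ∀ t ∈ Fl A x y ⊔ zpowers (u * k), t ∈ Fl A x y ∨ t * (u * k) ∈ Fl A x y := by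
    intro t ht
    rw [sup_eq_closure] at ht
    have nm : ∀ a ∈ Fl A x y, (u * k) * a * (u * k) ∈ Fl A x y := fun a ha => by
      have := (mem_normalizer_iff.1 wN a).1 ha
      rwa [inv_eq_of_mul_eq_one_right w2] at this
    generalize u * k = w at *
    induction ht using closure_induction with
    | mem a ha =>
      rcases ha with ha | ⟨n, rfl⟩
      · exact Or.inl ha
      · rcases Int.even_or_odd n with ⟨m, rfl⟩ | ⟨m, rfl⟩
        · left
          have : w ^ (m + m) = 1 := by rw [← two_mul, zpow_mul, zpow_two, w2, one_zpow]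
          simp only [this, one_mem]
        · right
          have : w ^ (2 * m + 1) * w = 1 := by
            rw [zpow_add, zpow_mul, zpow_two, w2, one_zpow, one_mul, zpow_one, w2]
          simp only [this, one_mem]
    | one => exact Or.inl (one_mem _)
    | mul a b _ _ ha hb =>
      rcases ha with ha | ha <;> rcases hb with hb | hb
      · exact Or.inl (mul_mem ha hb)
      · exact Or.inr (by rw [mul_assoc]; exact mul_mem ha hb)
      · refine Or.inr ?_
        have : a * b * w = (a * w) * (w * b * w) := by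
          rw [mul_assoc a w, ← mul_assoc w, ← mul_assoc w, w2, one_mul, mul_assoc]
        rw [this]; exact mul_mem ha (nm b hb)
      · refine Or.inl ?_
        have : a * b = (a * w) * (w * (b * w) * w) := by
          rw [mul_assoc w (b * w), mul_assoc b, w2, mul_one, mul_assoc a, ← mul_assoc w, w2, one_mul]
        rw [this]; exact mul_mem ha (nm _ hb)
    | inv a _ ha =>
      rcases ha with ha | ha
      · exact Or.inl (inv_mem ha)
      · refine Or.inr ?_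
        have : a⁻¹ * w = (w * (a * w) * w)⁻¹ := by
          rw [mul_assoc w (a * w), mul_assoc a, w2, mul_one, mul_inv_rev,
            inv_eq_of_mul_eq_one_right w2]
        rw [this]; exact inv_mem (nm _ ha)
  have t2 : (g * k * g⁻¹) * (g * k * g⁻¹) = 1 := by
    rw [show (g * k * g⁻¹) * (g * k * g⁻¹) = g * (k * k) * g⁻¹ by group, k2]; group
  rcases key _ (hT hg) with e | e
  · have e1 := la.ctr _ e (ax.out x y hxy _ (le_normalizer e) ak (mem_sup_right e))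
    have := ak.1
    rw [e1, orderOf_one] at this
    exact absurd this (by norm_num)
  · have e3 : (g * k * g⁻¹) * (u * k) * (u * k) = g * k * g⁻¹ := by rw [mul_assoc, w2, mul_one]
    obtain ⟨b, -, hb⟩ := (oc x y hxy _ wN w2 wout).2 _ e (by rw [e3, t2])
    rw [e3] at hb
    have := ax.cj _ b⁻¹ ak
    rw [← hb] at this
    exact c k kK ko ku (by simpa [mul_assoc] using this)

end Cfsg.Agent.H11.Cy.Lp
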