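import Cfsg.Agent.H11.CyDefs
import Cfsg.Agent.H11.ElDefs

/-! Project CY, chapter LP (lines `L₂(p)`): kit, pieces and assembly.
Template for most pieces: project EL (`ElDefs`, the case `p = 11`). -/

set_option autoImplicit false

namespace Cfsg.Agent.H11.Cy.Lp

open Subgroup MulAction
open Cfsg.Agent.H11.EL (Nm Ct C1 cj Ex R1 SC OS WS CL2)

section Defs
variable {G : Type} [Group G] {Ω : Type} [MulAction G Ω]

/-- exponent with square `≠ 1` -/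
def Big (p : ℕ) (g : G) (B : Subgroup G) : Prop := ∃ i : ℤ, Ex g B i ∧ ¬ (p : ℤ) ∣ i ^ 2 - 1
/-- the pair stabiliser lies in `K L` -/
def E1 (A : Ω → Subgroup G) (x y : Ω) : Prop := Hs G x y ≤ Kl A x y ⊔ Fl A x y

/-- kit, part A -/
structure LA (p : ℕ) (A : Ω → Subgroup G) (x y : Ω) : Prop where
  card : 2 * Nat.card (Fl A x y) = p * (p ^ 2 - 1)
  simple : IsSimpleGroup (Fl A x y)
  ctr : ∀ g ∈ Fl A x y, g ∈ Kl A x y → g = 1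
  mx : x ∈ Ln A x y
  my : y ∈ Ln A x y
  reg : ∀ u ∈ Ln A x y, ∀ v ∈ Ln A x y, ∀ w ∈ Ln A x y, v ≠ u → w ≠ u → ∃ a ∈ A u, a • v = w
  ex : ∀ g : G, g • x = x → ∃ i : ℤ, Ex g (A x) i ∧ ¬ (p : ℤ) ∣ i
  three : ∀ g : G, ∀ u ∈ Ln A x y, ∀ v ∈ Ln A x y, ∀ w ∈ Ln A x y, u ≠ v → v ≠ w → u ≠ w →
    g • u = u → g • v = v → g • w = w → g ∈ Kl A x y
  hN : Hs G x y ≤ Nm (Fl A x y)
  dec : ∀ g ∈ Kl A x y ⊔ Fl A x y, ∃ k ∈ Kl A x y, ∃ l ∈ Fl A x y, g = k * l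
  NM : ∀ g ∈ Nm (Fl A x y), ∃ l ∈ Fl A x y, ∃ h ∈ Hs G x y, g = l * h
  CM : ∀ c ∈ Ct (A x), c ∈ Nm (Fl A x y) → ∃ k ∈ Kl A x y, ∃ a ∈ A x, c = k * a
  cM : Nat.card (Nm (Fl A x y)) = (p + 1) * p * Nat.card (Hs G x y)
  cyc : ∃ h ∈ Hs G x y, ∀ g ∈ Hs G x y, ∃ k ∈ Kl A x y, ∃ n : ℕ, g = k * h ^ n

/-- kit, part C: the torus `⟨f⟩` and a swapping involution `s` of `L` -/
structure LC (p : ℕ) (A : Ω → Subgroup G) (x y : Ω) (f s : G) : Prop where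
  fL : f ∈ Fl A x y
  fH : f ∈ Hs G x y
  fo : 2 * orderOf f + 1 = p
  fe : ∃ i : ℤ, Ex f (A x) i ∧ ∀ n : ℕ, (p : ℤ) ∣ i ^ n - 1 ↔ orderOf f ∣ n
  sL : s ∈ Fl A x y
  so : orderOf s = 2
  sx : s • x = y
  sy : s • y = x
  sf : s * f * s⁻¹ = f⁻¹
  TL : ∀ g ∈ Fl A x y, g ∈ Hs G x y → g ∈ zpowers f

/-- kit, part T -/
structure LT (p : ℕ) (A : Ω → Subgroup G) (x y : Ω) (f : G) : Prop where
  com : ∀ g ∈ Hs G x y, Commute g f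
  inv : ∀ u : G, u • x = y → u • y = x → ∀ g ∈ Hs G x y, u * g * u⁻¹ * g ∈ Kl A x y
  sq : ∀ u : G, u • x = y → u • y = x → u * u ∈ Kl A x y
  mm : ∀ g ∈ Hs G x y, ∀ i j : ℤ, Ex g (A x) i → Ex g (A y) j → (p : ℤ) ∣ i * j - 1
  kf : ∀ g ∈ Hs G x y, g ∈ Kl A x y ⊔ Fl A x y → ∃ k ∈ Kl A x y, ∃ n : ℕ, g = k * f ^ n
  idx : ∀ g ∈ Nm (Fl A x y), ∀ h ∈ Nm (Fl A x y), g ∉ Kl A x y ⊔ Fl A x y →
    h ∉ Kl A x y ⊔ Fl A x y → g * h ∈ Kl A x y ⊔ Fl A x y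
  e1c : E1 A x y → Nat.card (Hs G x y) = orderOf f * Nat.card (Kl A x y)
  e2c : ¬ E1 A x y → Nat.card (Hs G x y) = 2 * orderOf f * Nat.card (Kl A x y)
  e1M : E1 A x y → Nm (Fl A x y) ≤ Kl A x y ⊔ Fl A x y
  small : ∀ g ∈ Hs G x y, g ∈ Kl A x y ∨ Ex g (A x) (-1) ∨ Big p g (A x)
  e3 : p % 4 = 3 → (E1 A x y ↔ ∀ g ∈ Hs G x y, ¬ Ex g (A x) (-1))

/-- kit, part V: involutions -/
structure LV (p : ℕ) (A : Ω → Subgroup G) (x y : Ω) : Prop where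
  cls : ∀ s ∈ Fl A x y, ∀ t ∈ Fl A x y, orderOf s = 2 → orderOf t = 2 →
    ∃ g ∈ Fl A x y, g * s * g⁻¹ = t
  four : ∀ s ∈ Fl A x y, orderOf s = 2 → ∃ w ∈ Fl A x y, orderOf w = 2 ∧ w ≠ s ∧ Commute s w
  par : ∀ u ∈ Nm (Fl A x y), u * u ∈ Kl A x y → u ∉ Kl A x y →
    ((u ∈ Kl A x y ⊔ Fl A x y ↔ ∃ z ∈ Ln A x y, u • z = z) ↔ p % 4 = 1)

/-- kit, part W -/
structure LW (p : ℕ) (A : Ω → Subgroup G) (x y : Ω) : Prop where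
  v4 : ∀ a ∈ Nm (Fl A x y), ∀ b ∈ Nm (Fl A x y), ∀ c ∈ Nm (Fl A x y), a * a ∈ Kl A x y →
    b * b ∈ Kl A x y → a ∉ Kl A x y → b ∉ Kl A x y → a * b ∉ Kl A x y → Commute a b →
    Commute a c → Commute b c → c * c ∈ Kl A x y
  sqs : p % 4 = 3 → ∀ t ∈ Hs G x y, t * t = 1 → Ex t (A x) (-1) → ∀ s ∈ Fl A x y, orderOf s = 2 →
    ∃ u ∈ Fl A x y ⊔ zpowers t, u * u = s

/-- the hypotheses of the chapter -/
structure L0 (p : ℕ) (A : Ω → Subgroup G) : Prop where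
  mc : Mc p A
  mu : Multi A
  ty : TyL p A

/-- with the kit -/
structure L1 (p : ℕ) (A : Ω → Subgroup G) : Prop extends L0 p A where
  la : ∀ x y, x ≠ y → LA p A x y
  lc : ∀ x y, x ≠ y → ∃ f s, LC p A x y f s
  lt : ∀ x y, x ≠ y → ∀ f s, LC p A x y f s → LT p A x y f
  lv : ∀ x y, x ≠ y → LV p A x y
  lw : ∀ x y, x ≠ y → LW p A x y

/-- global facts, part G -/
structure NG (p : ℕ) (A : Ω → Subgroup G) : Prop where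
  two : ∀ x (g : G), g • x = x → Big p g (A x) → ∀ y z, y ≠ x → z ≠ x → g • y = y → g • z = z → y = z
  five : ∀ x y z, x ≠ y → z ∉ Ln A x y → ∀ g ∈ Hs G x y, Big p g (A x) → g ∉ Nm (Fl A x z)
  cH : ∀ x y : Ω, x ≠ y → Nat.card (stabilizer G x) = (Nat.card Ω - 1) * Nat.card (Hs G x y)
  cG : ∀ x : Ω, Nat.card G = Nat.card Ω * Nat.card (stabilizer G x)
  pn : p ∣ Nat.card Ω - 1
  many : p * (p + 1) ≤ Nat.card Ω - 1
  cK : ∀ x y x' y', x ≠ y → x' ≠ y' → Nat.card (Kl A x y) = Nat.card (Kl A x' y')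
  bigr : 7 ≤ p → ∀ x y, x ≠ y → ∃ r : ℕ, r.Prime ∧ ∃ g ∈ Fl A x y, g ∈ Hs G x y ∧
    IsPGroup r (zpowers g) ∧ Big p g (A x)

/-- global facts, part S -/
structure NS (p : ℕ) (A : Ω → Subgroup G) : Prop where
  nn : ∀ N : Subgroup G, N.Normal → N ≠ ⊥ → ∀ x, A x ≤ N
  g0 : IsSimpleGroup (⨆ x, A x : Subgroup G)
  simple : 7 ≤ p → IsSimpleGroup G
  nc : ¬ IsMulCommutative G
  no2 : ∀ N : Subgroup G, N.Normal → N.index = 2 → ∀ x y : Ω, x ≠ y → Hs G x y ≤ N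

/-- a doubly transitive subsystem with a nontrivial kernel is a line -/
def Sub (A : Ω → Subgroup G) : Prop := ∀ (X : Subgroup G) (Φ : Set Ω),
  (∀ g ∈ X, ∀ z ∈ Φ, g • z ∈ Φ) → (∀ z ∈ Φ, A z ≤ X) → Tr2 X Φ →
  (∃ k ∈ X, k ≠ 1 ∧ ∀ z ∈ Φ, k • z = z) → ∀ x ∈ Φ, ∀ y ∈ Φ, x ≠ y → Φ ⊆ Ln A x y

/-- elements of `K` of order `r` fix only the line -/
def TI (A : Ω → Subgroup G) (r : ℕ) : Prop := ∀ x y, x ≠ y → ∀ k ∈ Kl A x y, orderOf k = r →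
  ∀ z, k • z = z → z ∈ Ln A x y

structure L2 (p : ℕ) (A : Ω → Subgroup G) : Prop extends L1 p A, NG p A, NS p A where
  ti2 : TI A 2
  ti : 7 ≤ p → ∀ x y, x ≠ y → ∀ k ∈ Kl A x y, k ≠ 1 → ∀ z, k • z = z → z ∈ Ln A x y
  /-- an involution centralising another line and normalising this one -/
  te : ∀ x y, x ≠ y → Even (Nat.card (Kl A x y)) → ∃ x' y', x' ≠ y' ∧ Fl A x' y' ≠ Fl A x y ∧
    ∃ u ∈ Kl A x' y', orderOf u = 2 ∧ u ∈ Nm (Fl A x y) ∧ ∀ z ∈ Ln A x y, u • z ≠ z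
  cg : (∀ x y, x ≠ y → IsCyclic (Hs G x y) ∧ Odd (Nat.card (Kl A x y))) → Concl p A

/-- some nonidentity element of `K` fixes a second line through `x` -/
def Mixed (A : Ω → Subgroup G) (x y : Ω) (k : G) : Prop :=
  k ∈ Kl A x y ∧ k ≠ 1 ∧ ∃ z, z ∉ Ln A x y ∧ k ∈ Nm (Fl A x z)

/-- the case `p ≡ 3 mod 4` at a pair -/
structure L3 (p : ℕ) (A : Ω → Subgroup G) (x y : Ω) : Prop extends L2 p A where
  p3 : p % 4 = 3
  p7 : 7 ≤ p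
  xy : x ≠ y
  even : Even (Nat.card Ω)
  ctr : ∀ u v w, v ≠ u → w ≠ u → ∃ c ∈ Ct (A u), c • v = w
  cC : ∀ u v, u ≠ v → Nat.card (Ct (A u)) = (Nat.card Ω - 1) * Nat.card (Kl A u v)
  tiN : ∀ u v, u ≠ v → ∀ k ∈ Kl A u v, k ≠ 1 → ∀ g : G, g * k * g⁻¹ ∈ Kl A u v → g ∈ Nm (Fl A u v)
  ti' : ∀ u v u' v', u ≠ v → u' ≠ v' → ∀ k ∈ Kl A u v, k ≠ 1 → k ∈ Kl A u' v' →
    Fl A u v = Fl A u' v'
  mix : ∀ u v w, u ≠ v → w ∉ Ln A u v → ∀ k ∈ Kl A u v, k ≠ 1 → k ∈ Nm (Fl A u w) →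
    orderOf k = p ∧ (∃ a ∈ A u, a ≠ 1 ∧ k * a ≠ 1 ∧ k * a ∈ Kl A u w) ∧
      ∀ c ∈ Kl A u v, Commute c k → c ∈ zpowers k

/-- a nilpotent normal subgroup of the point stabiliser, regular on the other points -/
structure Spl (x : Ω) (Q : Subgroup G) : Prop where
  le : Q ≤ stabilizer G x
  nm : ∀ g ∈ stabilizer G x, ∀ q ∈ Q, g * q * g⁻¹ ∈ Q
  nil : Group.IsNilpotent Q
  tr : ∀ u v, u ≠ x → v ≠ x → ∃ q ∈ Q, q • u = v
  reg : ∀ u, u ≠ x → ∀ q ∈ Q, q • u = u → q = 1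

/-- `C(t)/⟨t⟩` is doubly transitive on the fixed points of `t`, three-point stabilisers trivial -/
structure ZS (Ω : Type) [MulAction G Ω] (t : G) : Prop where
  tr2 : Tr2 (C1 t) (fixedBy Ω t)
  three : ∀ g ∈ C1 t, ∀ u ∈ fixedBy Ω t, ∀ v ∈ fixedBy Ω t, ∀ w ∈ fixedBy Ω t, u ≠ v → v ≠ w → u ≠ w →
    g • u = u → g • v = v → g • w = w → g ∈ zpowers t

end Defs

/-! ### kit -/
def LAStmt : Prop := All fun _ _ _ _ p A => L0 p A → ∀ x y, x ≠ y → LA p A x y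
def LCStmt : Prop := All fun _ _ _ _ p A => L0 p A → (∀ x y, x ≠ y → LA p A x y) →
  ∀ x y, x ≠ y → ∃ f s, LC p A x y f s
def MMStmt : Prop := All fun G _ _ _ p A => L0 p A → (∀ x y, x ≠ y → LA p A x y) →
  ∀ x y, x ≠ y → ∀ g ∈ Hs G x y, ∀ i j : ℤ, Ex g (A x) i → Ex g (A y) j →
    (p : ℤ) ∣ (i * j) ^ 2 - 1 → (p : ℤ) ∣ i * j - 1
def LTStmt : Prop := All fun _ _ _ _ p A => L0 p A → (∀ x y, x ≠ y → LA p A x y) →
  ∀ x y, x ≠ y → ∀ f s, LC p A x y f s → LT p A x y f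
def LVStmt : Prop := All fun _ _ _ _ p A => L0 p A → (∀ x y, x ≠ y → LA p A x y) →
  (∀ x y, x ≠ y → ∃ f s, LC p A x y f s ∧ LT p A x y f) → ∀ x y, x ≠ y → LV p A x y
def LWStmt : Prop := All fun _ _ _ _ p A => L0 p A → (∀ x y, x ≠ y → LA p A x y) →
  (∀ x y, x ≠ y → ∃ f s, LC p A x y f s ∧ LT p A x y f) → (∀ x y, x ≠ y → LV p A x y) →
  ∀ x y, x ≠ y → LW p A x y
def NGStmt : Prop := All fun _ _ _ _ p A => L1 p A → NG p A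
def NSStmt : Prop := All fun _ _ _ _ p A => L1 p A → NG p A → NS p A
def SubStmt : Prop := All fun _ _ _ _ p A => L1 p A → Sub A
def TI2Stmt : Prop := All fun _ _ _ _ p A => L1 p A → Sub A → TI A 2
def TIpStmt : Prop := All fun _ _ _ _ p A => L1 p A → NG p A → Sub A → 7 ≤ p →
  ∀ x y, x ≠ y → ∀ k ∈ Kl A x y, k ≠ 1 → ∀ z, k • z = z → z ∈ Ln A x y
def TEStmt : Prop := All fun _ _ _ _ p A => L1 p A → NS p A → TI A 2 →
  ∀ x y, x ≠ y → Even (Nat.card (Kl A x y)) → ∃ x' y', x' ≠ y' ∧ Fl A x' y' ≠ Fl A x y ∧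
    ∃ u ∈ Kl A x' y', orderOf u = 2 ∧ u ∈ Nm (Fl A x y) ∧ ∀ z ∈ Ln A x y, u • z ≠ z

/-! ### `p ≡ 1 mod 4` -/
def AStmt : Prop := All fun _ _ _ _ p A => L2 p A → p % 4 = 1 → ∀ x y, x ≠ y →
  Odd (Nat.card (Kl A x y))
def B0Stmt : Prop := All fun G _ Ω _ p A => L2 p A → p % 4 = 1 → ∀ x y, x ≠ y →
  Odd (Nat.card (Kl A x y)) → ∀ z ∈ Hs G x y, orderOf z = 2 → Even (Nat.card Ω) ∧
    z ∈ Fl A x y ∧ Hs G x y ≤ C1 z ∧ Tr2 (C1 z) (fixedBy Ω z) ∧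
    (4 ∣ Nat.card Ω → 4 ∣ (fixedBy Ω z).ncard) ∧
    (∀ u : Ω, ∀ a ∈ stabilizer G u, ∀ b ∈ stabilizer G u, orderOf a = 2 → orderOf b = 2 →
      Commute a b → a = b)
def B1Stmt : Prop := All fun _ _ Ω _ p A => L2 p A → ∀ x y, x ≠ y →
  Odd (Nat.card (Kl A x y)) → Nat.card Ω % 4 ≠ 2
def B2Stmt : Prop := All fun _ _ Ω _ p A => L2 p A → p % 4 = 1 → 7 ≤ p → ∀ x y, x ≠ y →
  Odd (Nat.card (Kl A x y)) → 4 ∣ Nat.card Ω → Kl A x y = ⊥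
def B3Stmt : Prop := All fun _ _ Ω _ p A => L2 p A → p = 5 → ∀ x y, x ≠ y →
  Odd (Nat.card (Kl A x y)) → 4 ∣ Nat.card Ω → E1 A x y
def B4Stmt : Prop := All fun _ _ Ω _ p A => L2 p A → p = 5 → ∀ x y, x ≠ y →
  Odd (Nat.card (Kl A x y)) → 4 ∣ Nat.card Ω → ¬ E1 A x y

/-! ### `p ≡ 3 mod 4` -/
def N1Stmt : Prop := All fun _ _ Ω _ p A => L2 p A → p % 4 = 3 → Even (Nat.card Ω)
def NEStmt : Prop := All fun _ _ Ω _ p A => L2 p A → p % 4 = 3 → Even (Nat.card Ω) →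
  ∀ x y, x ≠ y → L3 p A x y
/-- abstract -/
def SPStmt : Prop := ∀ {G : Type} [Group G] [Finite G] [IsSimpleGroup G] (y u : G),
  ¬ IsMulCommutative G → orderOf y = 2 → (∀ x : G, x * x ≠ y) → CL2 y → 24 < Nat.card (C1 y) →
  orderOf u = 4 → False
def N2aStmt : Prop := All fun G _ Ω _ p A => ∀ x y, L3 p A x y → ∀ t ∈ Hs G x y, t * t = 1 →
  Ex t (A x) (-1) → (∀ g : G, g * g ≠ t) ∧ (Odd (Nat.card (Kl A x y)) → ZS Ω t)
def N2Stmt : Prop := All fun _ _ _ _ p A => ∀ x y, L3 p A x y → Odd (Nat.card (Kl A x y)) → E1 A x y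
def FSStmt : Prop := All fun _ _ _ _ p A => ∀ x y, L3 p A x y → Kl A x y ≠ ⊥ →
  (∀ k, ¬ Mixed A x y k) → ∃ Q : Subgroup _, Spl x Q ∧ Q ≤ Ct (A x)
def T1Stmt : Prop := All fun G _ _ _ p A => ∀ x y, L3 p A x y → Odd (Nat.card (Kl A x y)) →
  E1 A x y → ∀ Q : Subgroup G, Spl x Q → Kl A x y = ⊥
def WStmt : Prop := All fun G _ _ _ p A => ∀ x y, L3 p A x y → Odd (Nat.card (Kl A x y)) →
  E1 A x y → ∃ (W : Subgroup G) (l : ℕ), WS (A x) W l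
def WKStmt : Prop := All fun G _ _ _ p A => ∀ x y, L3 p A x y → ∀ (W : Subgroup G) (l : ℕ),
  WS (A x) W l → (∀ k ∈ W, k ∈ Kl A x y → k ≠ 1 → Mixed A x y k) ∧
  (W ⊓ Kl A x y = ⊥ → ∀ k ∈ Kl A x y, k ≠ 1 → ∀ w ∈ W, Commute w k → w ∈ A x)
/-- abstract -/
def ABStmt : Prop := ∀ {G : Type} [Group G] [Finite G] (p e : ℕ) (A W : Subgroup G) (k f : G) (i : ℤ),
  p.Prime → Nat.card A = p → WS A W p → k ∈ Ct A → k ^ p = 1 → f ∈ Nm A → f ^ e = 1 → ¬ p ∣ e →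
  Ex f A i → ¬ (p : ℤ) ∣ i - 1 → Commute f k → (∀ w ∈ W, Commute w k → w ∈ A) →
  ∀ x ∈ W, ∀ y ∈ W, Commute x y
/-- abstract -/
def NUStmt : Prop := ∀ {G : Type} [Group G] [Finite G] (p : ℕ) (A W K : Subgroup G) (k : G),
  p.Prime → Nat.card A = p → WS A W p → (∀ x ∈ W, ∀ y ∈ W, Commute x y) → K ≤ Ct A → k ∈ K →
  orderOf k = p → (∀ n ∈ K, n ∈ Nm (zpowers k) → n ∈ zpowers k) → K ≠ zpowers k →
  (∀ c ∈ K, c ≠ 1 → ∀ w ∈ W, Commute w c → w ∈ A) → False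
def N3nStmt : Prop := All fun _ _ _ _ p A => ∀ x y, L3 p A x y → Odd (Nat.card (Kl A x y)) →
  ∀ k, Mixed A x y k → ∀ n ∈ Kl A x y, n ∈ Nm (zpowers k) → n ∈ zpowers k
def N3bStmt : Prop := All fun _ _ _ _ p A => ∀ x y, L3 p A x y → Odd (Nat.card (Kl A x y)) →
  E1 A x y → ∀ k, Mixed A x y k → Kl A x y = zpowers k
def N3cStmt : Prop := All fun G _ _ _ p A => ∀ x y, L3 p A x y → E1 A x y →
  ∀ k, Kl A x y = zpowers k → orderOf k = p → IsCyclic (Hs G x y)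
def N41Stmt : Prop := All fun _ _ _ _ p A => ∀ x y, L3 p A x y → Even (Nat.card (Kl A x y)) →
  R1 (Ct (A x))
def N43Stmt : Prop := All fun _ _ _ _ p A => ∀ x y, L3 p A x y → Even (Nat.card (Kl A x y)) →
  ∃ t, SC (Kl A x y) t
def N44Stmt : Prop := All fun G _ _ _ p A => ∀ x y, L3 p A x y → ∀ t, SC (Kl A x y) t →
  ∃ O : Subgroup G, OS (A x) O t
def N45Stmt : Prop := All fun G _ _ _ p A => ∀ x y, L3 p A x y → ∀ t, SC (Kl A x y) t →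
  ∀ O : Subgroup G, OS (A x) O t → Kl A x y = zpowers t ∧ Spl x O
def N5Stmt : Prop := All fun _ _ _ _ p A => ∀ x y, L3 p A x y → ∀ t, orderOf t = 2 →
  Kl A x y = zpowers t → ¬ E1 A x y
def N6Stmt : Prop := All fun G _ _ _ p A => ∀ x y, L3 p A x y → ∀ t, orderOf t = 2 →
  Kl A x y = zpowers t → ∀ v ∈ Hs G x y, Ex v (A x) (-1) → v * v = 1
def N7Stmt : Prop := All fun G _ _ _ p A => ∀ x y, L3 p A x y → ∀ t, orderOf t = 2 →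
  Kl A x y = zpowers t → ∀ O : Subgroup G, Spl x O → ∀ v ∈ Hs G x y, Ex v (A x) (-1) → v * v ≠ 1

theorem cyc_all {G : Type} [Group G] {Ω : Type} [MulAction G Ω] {p : ℕ} {A : Ω → Subgroup G}
    (h : St p A) {x y : Ω} (hxy : x ≠ y) (hc : IsCyclic (Hs G x y)) (u v : Ω) (huv : u ≠ v) :
    IsCyclic (Hs G u v) := by
  obtain ⟨g, -, hx, hy⟩ := h.two x trivial y trivial u trivial v trivial hxy huv
  have e : (Hs G x y).map (MulAut.conj g).toMonoidHom = Hs G u v := by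
    ext a
    simp only [mem_map, mem_inf, mem_stabilizer_iff, MulEquiv.coe_toMonoidHom, MulAut.conj_apply]
    constructor
    · rintro ⟨b, ⟨b1, b2⟩, rfl⟩
      rw [← hx, ← hy]
      constructor <;> simp [mul_smul, b1, b2]
    · rintro ⟨a1, a2⟩
      refine ⟨g⁻¹ * a * g, ⟨?_, ?_⟩, by group⟩
      · rw [mul_smul, mul_smul, hx, a1, ← hx, inv_smul_smul]
      · rw [mul_smul, mul_smul, hy, a2, ← hy, inv_smul_smul]
  rw [← e]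
  exact isCyclic_of_surjective _ (MonoidHom.subgroupMap_surjective _ _)

theorem lp (cg : CgStmt) (la : LAStmt) (lc : LCStmt) (lt : LTStmt) (lv : LVStmt) (lw : LWStmt)
    (ng : NGStmt) (ns : NSStmt) (sb : SubStmt) (t2 : TI2Stmt) (tp : TIpStmt) (te : TEStmt)
    (a : AStmt) (b0 : B0Stmt) (b1 : B1Stmt) (b2 : B2Stmt) (b3 : B3Stmt) (b4 : B4Stmt)
    (n1 : N1Stmt) (ne : NEStmt) (n2 : N2Stmt) (fs : FSStmt) (t1 : T1Stmt) (n3b : N3bStmt)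
    (n3c : N3cStmt) (n43 : N43Stmt) (n44 : N44Stmt) (n45 : N45Stmt) (n5 : N5Stmt) (n6 : N6Stmt)
    (n7 : N7Stmt) : LpStmt := by
  intro G _ _ Ω _ _ p A h mc mu ty
  have l0 : L0 p A := ⟨mc, mu, ty⟩
  have hla := la G Ω p A h l0
  have hlc := lc G Ω p A h l0 hla
  have hlt := lt G Ω p A h l0 hla
  have hct : ∀ x y, x ≠ y → ∃ f s, LC p A x y f s ∧ LT p A x y f := fun x y hxy => by
    obtain ⟨f, s, c⟩ := hlc x y hxy
    exact ⟨f, s, c, hlt x y hxy f s c⟩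
  have hlv := lv G Ω p A h l0 hla hct
  have l1 : L1 p A := ⟨l0, hla, hlc, hlt, hlv, lw G Ω p A h l0 hla hct hlv⟩
  have hng := ng G Ω p A h l1
  have hns := ns G Ω p A h l1 hng
  have hsb := sb G Ω p A h l1
  have ht2 := t2 G Ω p A h l1 hsb
  have l2 : L2 p A := ⟨l1, hng, hns, ht2, tp G Ω p A h l1 hng hsb, te G Ω p A h l1 hns ht2,
    cg G Ω p A h mc⟩
  obtain ⟨x, y, hxy⟩ := h.nt.exists_pair_ne
  have fin : IsCyclic (Hs G x y) → Odd (Nat.card (Kl A x y)) → Concl p A := fun c o =>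
    l2.cg fun u v huv => ⟨cyc_all h hxy c u v huv, hng.cK x y u v hxy huv ▸ o⟩
  have triv : Kl A x y = ⊥ → Concl p A := fun e => by
    refine fin ?_ (by rw [e]; simp)
    obtain ⟨g, hg, hh⟩ := (hla x y hxy).cyc
    refine ⟨⟨⟨g, hg⟩, fun b => ?_⟩⟩
    obtain ⟨k, hk, n, hn⟩ := hh b.1 b.2
    rw [e, mem_bot] at hk
    exact ⟨n, Subtype.ext (by simp [hn, hk])⟩
  have hp5 := ty.1
  have hodd : p % 2 = 1 := h.pp.eq_two_or_odd.resolve_left mc.p2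
  by_cases h1 : p % 4 = 1
  · have o := a G Ω p A h l2 h1 x y hxy
    obtain ⟨f, s, c⟩ := hlc x y hxy
    have ev : 2 ∣ orderOf f := by have := c.fo; omega
    have f0 : orderOf f ≠ 0 := by have := c.fo; omega
    have hz : orderOf (f ^ (orderOf f / 2)) = 2 := orderOf_pow_orderOf_div f0 ev
    have e := (b0 G Ω p A h l2 h1 x y hxy o _ (pow_mem c.fH _) hz).1
    have e2 := b1 G Ω p A h l2 x y hxy o
    have e4 : 4 ∣ Nat.card Ω := by obtain ⟨m, hm⟩ := e; omega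
    by_cases h5 : p = 5
    · exact absurd (b3 G Ω p A h l2 h5 x y hxy o e4) (b4 G Ω p A h l2 h5 x y hxy o e4)
    · exact triv (b2 G Ω p A h l2 h1 (by omega) x y hxy o e4)
  have h3 : p % 4 = 3 := by omega
  have l3 := ne G Ω p A h l2 h3 (n1 G Ω p A h l2 h3) x y hxy
  rcases Nat.even_or_odd (Nat.card (Kl A x y)) with ev | o
  · obtain ⟨t, ht⟩ := n43 G Ω p A h x y l3 ev
    obtain ⟨O, hO⟩ := n44 G Ω p A h x y l3 t ht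
    obtain ⟨hK, hS⟩ := n45 G Ω p A h x y l3 t ht O hO
    have e := n5 G Ω p A h x y l3 t ht.2.1 hK
    obtain ⟨f, s, c⟩ := hlc x y hxy
    rw [(hlt x y hxy f s c).e3 h3] at e
    push Not at e
    obtain ⟨v, hv, hi⟩ := e
    exact absurd (n6 G Ω p A h x y l3 t ht.2.1 hK v hv hi) (n7 G Ω p A h x y l3 t ht.2.1 hK O hS v hv hi)
  have e1 := n2 G Ω p A h x y l3 o
  by_cases hb : Kl A x y = ⊥
  · exact triv hb
  by_cases hm : ∃ k, Mixed A x y k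
  · obtain ⟨k, hk⟩ := hm
    obtain ⟨z, hz, hn⟩ := hk.2.2
    exact fin (n3c G Ω p A h x y l3 e1 k (n3b G Ω p A h x y l3 o e1 k hk)
      (l3.mix x y z hxy hz k hk.1 hk.2.1 hn).1) o
  · push Not at hm
    obtain ⟨Q, hQ, -⟩ := fs G Ω p A h x y l3 hb hm
    exact triv (t1 G Ω p A h x y l3 o e1 Q hQ)

end Cfsg.Agent.H11.Cy.Lp
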