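import Cfsg.Agent.H11.ElDefs
import Cfsg.Agent.H28.Transport

/-!
# A class of subgroups of order 11: the assembly
-/

set_option autoImplicit false
open Subgroup

namespace Cfsg.Agent.H11.EL

universe u

theorem cy_of (h1 : CY1Stmt.{u}) (h2 : CY2Stmt.{u}) : CYStmt.{u} := by
  intro G _ _ D A B hP hc hn
  refine h2 D A B hP hc hn (h1 D A B hP hc ?_)
  rcases hn with h | h | h | h | h <;> rw [h.2] <;> simp

section
variable {G : Type u} [Group G] [Finite G]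

omit [Finite G] in
theorem ex_mem_nm {g : G} {A : Subgroup G} [Finite A] {i : ℤ} (h : Ex g A i) : g ∈ Nm A := by
  rw [← cj_eq_iff]
  refine eq_of_le_of_card_ge ?_ (card_cj g A).ge
  rintro _ ⟨a, ha, rfl⟩
  have := h a ha
  simp only [MulEquiv.toMonoidHom_eq_coe, MonoidHom.coe_coe, MulAut.conj_apply]
  rw [this]; exact A.zpow_mem ha i

theorem nj_false (nb : NBStmt.{u}) (nt : NTStmt.{u}) (n1 : N1Stmt.{u}) (ne : NEStmt.{u})
    (n2 : N2Stmt.{u}) (ck : CKStmt.{u}) (n3a : N3aStmt.{u}) (n3b : N3bStmt.{u})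
    (n43 : N43Stmt.{u}) (n44 : N44Stmt.{u}) (n45 : N45Stmt.{u}) (n6 : N6Stmt.{u})
    {D : Set (Subgroup G)} (h : NJ D) : False := by
  have hT := nt D (nb D h)
  have hE := ne D hT (n1 D hT)
  obtain ⟨A, hA, B, hB, hAB⟩ := h.two
  have hP : Pr D A B := ⟨hE, hA, hB, hAB⟩
  rcases Nat.even_or_odd (Nat.card (Ct (A ⊔ B))) with hK | hK
  · obtain ⟨t, ht⟩ := n43 D A B hP hK
    obtain ⟨O, hO⟩ := n44 D A B t hP ht
    have hKt := n45 D A B O t hP ht hO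
    have hc : Nat.card (Ct (A ⊔ B)) = 2 := by rw [hKt, Nat.card_zpowers, ht.2.1]
    by_cases e1 : E1 A B
    · exact (ck D A B hP).1 e1 (by simp [hc])
    · simp only [E1, not_forall, not_not] at e1
      obtain ⟨y, yA, yB, hy⟩ := e1
      exact n6 D A B O t y ⟨hP, ht.2.1, hKt, hO, (ck D A B hP).2 hc y yA yB hy, hy, yA, yB⟩
  · have h3 : N3 D A B := ⟨hP, hK, n2 D A B hP hK⟩
    obtain ⟨k, hk⟩ := n3a D A B h3
    exact n3b D A B k h3 hk

theorem sim_j (b : Base.{u}) (j5 : J5Stmt.{u}) (j6 : J6Stmt.{u}) (j7 : J7Stmt.{u})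
    {D : Set (Subgroup G)} (h : Min D) {J A : Subgroup G} (hJ : IsJ J) (hA : A ∈ D) (hAJ : A ≤ J) :
    IsJ (⊤ : Subgroup G) := by
  have := h.simple
  obtain ⟨y, yJ, yy, hy⟩ := (b.ja J hJ).inv A ⟨hAJ, h.card A hA⟩
  have hS : Std D y A := ⟨hA, yy, hy, J, hJ, hAJ, yJ⟩
  have := j7 J hJ (j6 D y A h.toCls hS (j5 D y A h hS))
  rwa [this] at hJ

end

theorem sim_of (b : Base.{u}) (j5 : J5Stmt.{u}) (j6 : J6Stmt.{u}) (j7 : J7Stmt.{u})
    (nj : ∀ {G : Type u} [Group G] [Finite G] {D : Set (Subgroup G)}, NJ D → False) :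
    SimStmt.{u} := by
  intro G _ _ D h
  by_cases hJ : ∃ J : Subgroup G, IsJ J ∧ ∃ A ∈ D, A ≤ J
  · obtain ⟨J, hJ, A, hA, hAJ⟩ := hJ
    exact Or.inr (sim_j b j5 j6 j7 h hJ hA hAJ)
  have hL : ∀ A ∈ D, ∀ B ∈ D, A ≠ B → IsL (A ⊔ B) := fun A hA B hB hAB =>
    (h.pair A hA B hB hAB).resolve_right fun k => hJ ⟨_, k, A, hA, le_sup_left⟩
  by_cases hT : ∃ A ∈ D, ∃ B ∈ D, A ≠ B ∧ A ⊔ B = ⊤
  · obtain ⟨A, hA, B, hB, hAB, e⟩ := hT
    exact Or.inl (e ▸ hL A hA B hB hAB)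
  refine (nj (D := D) ⟨h.toCls, h.simple, fun A hA B hB hAB =>
    ⟨h.card A hA, h.card B hB, hAB, hL A hA B hB hAB⟩, ?_, ?_⟩).elim
  · intro X hX A hA B hB hAB hAX hBX E hE hEX
    have le : ∀ Y ∈ D, Y ≤ X → Y ≤ gen D X := fun Y hY hYX => le_sSup ⟨hY, hYX⟩
    have hg : IsL (gen D X) :=
      (h.ind X hX A hA B hB hAB hAX hBX).resolve_right fun k => hJ ⟨_, k, A, hA, le A hA hAX⟩
    have e : A ⊔ B = gen D X := eq_of_le_of_card_ge (sup_le (le A hA hAX) (le B hB hBX))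
      (by rw [(b.la _ hg).card, (b.la _ (hL A hA B hB hAB)).card])
    exact e ▸ le E hE hEX
  · intro A hA B hB e
    by_cases hAB : A = B
    · subst hAB
      obtain ⟨A', hA', B', hB', h'⟩ := h.two
      rw [sup_idem] at e
      have k : ∀ Y ∈ D, Y = A := fun Y hY =>
        eq_of_le_of_card_ge (e ▸ le_top) (by rw [h.card A hA, h.card Y hY])
      exact h' ((k A' hA').trans (k B' hB').symm)
    · exact hT ⟨A, hA, B, hB, hAB, e⟩

theorem main_of (r1 : R1Stmt.{u}) (r2 : R2Stmt.{u}) (r3 : R3Stmt.{u}) (sim : SimStmt.{u}) :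
    MainStmt.{u} := by
  suffices H : ∀ (n : ℕ) (G : Type u) [Group G] [Finite G] (D : Set (Subgroup G)), Nat.card G = n →
      Cls D → sSup D = ⊤ → IsL (⊤ : Subgroup G) ∨ IsJ (⊤ : Subgroup G) from
    fun {G} _ _ D h e => H _ G D rfl h e
  intro n
  induction n using Nat.strong_induction_on with
  | _ n ih =>
  intro G _ _ D hn h e
  have hZ : center G = ⊥ := by
    by_contra hZ
    obtain ⟨⟨c, s⟩, k⟩ := r2 D h e
    refine hZ (k (ih _ ?_ _ _ rfl c s))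
    rw [← hn, card_eq_card_quotient_mul_card_subgroup (center G)]
    exact lt_mul_of_one_lt_right Nat.card_pos ((one_lt_card_iff_ne_bot _).2 hZ)
  obtain ⟨A, hA, B, hB, hAB⟩ := h.two
  have hnt : Nontrivial G := by
    by_contra k
    rw [not_nontrivial_iff_subsingleton] at k
    exact hAB (Subsingleton.elim _ _)
  refine sim D ⟨h, ⟨fun N hN => ?_⟩, fun X hX A hA B hB hAB hAX hBX => ?_⟩
  · rcases r1 D h e N hN with k | k
    · exact Or.inr k
    · exact Or.inl (le_bot_iff.1 (hZ ▸ k))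
  · obtain ⟨c, s⟩ := r3 D X h A hA B hB hAB hAX hBX
    have hle : gen D X ≤ X := sSup_le fun Y hY => hY.2
    have hlt : Nat.card (gen D X) < n := by
      rw [← hn]
      refine lt_of_le_of_ne (card_le_card_group _) fun k => hX ?_
      exact top_le_iff.1 ((card_eq_iff_eq_top _).1 k ▸ hle)
    rcases ih _ hlt _ _ rfl c s with ⟨⟨φ⟩⟩ | ⟨⟨φ⟩⟩
    · exact Or.inl ⟨topEquiv.symm.trans φ⟩
    · exact Or.inr ⟨topEquiv.symm.trans φ⟩

theorem psl_equiv {F : Type*} [Field F] [Fintype F] (hF : Fintype.card F = 11) :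
    Nonempty (Matrix.ProjectiveSpecialLinearGroup (Fin 2) F ≃* L11) :=
  haveI : Fact (Nat.Prime 11) := ⟨by norm_num⟩
  ⟨H28.pslEquiv (ZMod.ringEquivOfPrime F (by norm_num) hF).symm _⟩

theorem fin_of (m : MainStmt.{u}) {G : Type u} [Group G] [Finite G] {F : Type*} [Field F]
    [Fintype F] (hF : Fintype.card F = 11) (P : Subgroup G) (hP : Nat.card P = 11)
    (hPn : ¬ P.Normal) (hgen : normalClosure (P : Set G) = ⊤)
    (hpair : ∀ g : G, P.map (MulAut.conj g).toMonoidHom ≠ P →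
      Nonempty (↥(P ⊔ P.map (MulAut.conj g).toMonoidHom) ≃*
        Matrix.ProjectiveSpecialLinearGroup (Fin 2) F) ∨
        Cfsg.Spor.IsoJ1 ↥(P ⊔ P.map (MulAut.conj g).toMonoidHom)) :
    Nonempty (G ≃* Matrix.ProjectiveSpecialLinearGroup (Fin 2) F) ∨ Cfsg.Spor.IsoJ1 G := by
  obtain ⟨ε⟩ := psl_equiv hF
  let D : Set (Subgroup G) := Set.range fun g => cj g P
  have hc : Cls D := by
    refine ⟨?_, ?_, ?_, ?_, ?_⟩
    · rintro _ ⟨g, rfl⟩; exact (card_cj g P).trans hP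
    · rintro _ ⟨g, rfl⟩ k; exact ⟨k * g, cj_mul k g P⟩
    · rintro _ ⟨g, rfl⟩ _ ⟨k, rfl⟩
      exact ⟨k * g⁻¹, by simp only [← cj_mul, inv_mul_cancel_right]⟩
    · rintro _ ⟨g, rfl⟩ _ ⟨k, rfl⟩ hne
      have e : cj g P ⊔ cj k P = cj g (P ⊔ cj (g⁻¹ * k) P) := by
        rw [cj_sup, ← cj_mul, mul_inv_cancel_left]
      have hne' : cj (g⁻¹ * k) P ≠ P := fun q => hne (by
        show cj g P = cj k P
        rw [show k = g * (g⁻¹ * k) by group, cj_mul, q])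
      let ψ := (P ⊔ cj (g⁻¹ * k) P).equivMapOfInjective (MulAut.conj g).toMonoidHom
        (MulAut.conj g).injective
      show IsL (cj g P ⊔ cj k P) ∨ IsJ (cj g P ⊔ cj k P)
      rw [e]
      rcases hpair _ hne' with ⟨⟨φ⟩⟩ | ⟨⟨φ⟩⟩
      · exact Or.inl ⟨(ψ.symm.trans φ).trans ε⟩
      · exact Or.inr ⟨ψ.symm.trans φ⟩
    · by_contra k
      push Not at k
      refine hPn ⟨fun x hx g => ?_⟩
      have q : cj g P = cj 1 P := k _ ⟨g, rfl⟩ _ ⟨1, rfl⟩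
      rw [cj_one] at q
      rw [← q, mem_cj]; simpa [mul_assoc] using hx
  have hs : sSup D = ⊤ := by
    rw [← top_le_iff, ← hgen]
    refine (closure_le _).2 fun x hx => ?_
    obtain ⟨a, ha, hax⟩ := Group.mem_conjugatesOfSet_iff.1 hx
    obtain ⟨g, rfl⟩ := isConj_iff.1 hax
    refine (le_sSup (a := cj g P) ⟨g, rfl⟩ : cj g P ≤ sSup D) ?_
    rw [mem_cj]; simpa [mul_assoc] using ha
  rcases m D hc hs with ⟨⟨φ⟩⟩ | ⟨⟨φ⟩⟩
  · exact Or.inl ⟨(topEquiv.symm.trans φ).trans ε.symm⟩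
  · exact Or.inr ⟨topEquiv.symm.trans φ⟩

end Cfsg.Agent.H11.EL
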