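import Cfsg.Agent.H11.ElAsm

/-!
# A class of subgroups of order 11: the pieces N6, R1, R3
-/

set_option autoImplicit false
open Subgroup

namespace Cfsg.Agent.H11.EL

universe u

theorem n6_of (fa : FAStmt.{u}) (n6z : N6zStmt.{u}) (n6a : N6aStmt.{u}) (n6c : N6cStmt.{u}) :
    N6Stmt.{u} := by
  intro G _ _ D A B O t y h
  have tK : t ∈ Ct (A ⊔ B) := h.hK ▸ mem_zpowers t
  have tA : t ∈ Ct A := fun a ha => tK a (mem_sup_left ha)
  have tB : t ∈ Ct B := fun a ha => tK a (mem_sup_right ha)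
  have tt : t * t = 1 := by rw [← sq, ← h.t2, pow_orderOf_eq_one]
  have t1 : t ≠ 1 := fun e => by simpa [e] using h.t2
  have yL : y ∈ Nm (A ⊔ B) := by
    rw [← cj_eq_iff, cj_sup, cj_eq_iff.2 h.yN, cj_eq_iff.2 h.yB]
  have hty : Commute t y := by
    have k : y * t * y⁻¹ ∈ Ct (A ⊔ B) := by
      intro l hl
      have := tK _ ((mem_normalizer_iff''.1 yL l).1 hl)
      calc l * (y * t * y⁻¹) = y * (y⁻¹ * l * y * t) * y⁻¹ := by group
        _ = y * t * y⁻¹ * l := by rw [this]; group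
    rw [h.hK, mem_zpowers_iff] at k
    obtain ⟨n, hn⟩ := k
    have t2 : t ^ (2 : ℤ) = 1 := by rw [zpow_two, tt]
    rcases Int.even_or_odd' n with ⟨m, rfl | rfl⟩
    · rw [zpow_mul, t2, one_zpow] at hn
      exact absurd (by simpa using hn.symm) t1
    · rw [zpow_add, zpow_mul, t2, one_zpow, one_mul, zpow_one] at hn
      calc t * y = y * t * y⁻¹ * y := by rw [← hn]
        _ = y * t := by group
  have h' : N6 D A B O t (y * t) := by
    refine ⟨h.toPr, h.t2, h.hK, h.os, ?_, fun a ha => ?_,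
      mul_mem h.yN (centralizer_le_normalizer _ tA), mul_mem h.yB (centralizer_le_normalizer _ tB)⟩
    · calc y * t * (y * t) = y * (t * y) * t := by group
        _ = y * y * (t * t) := by rw [hty.eq]; group
        _ = 1 := by rw [h.yy, tt, one_mul]
    · rw [← h.yA a ha]
      calc y * t * a * (y * t)⁻¹ = y * (t * a) * t⁻¹ * y⁻¹ := by group
        _ = y * a * y⁻¹ := by rw [← tA a ha]; group
  have e := fa A O t y (h.ne.card A h.hA) h.os tA tt h.yy hty h.yN h.yA
  rw [(n6z D A B O t y h).2.2.2] at e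
  have h12 := h.ne.v12
  have h132 := h.ne.v132
  have hc := n6c D A B O t y h
  rcases n6a D A B O t y h with e1 | e1 <;> rcases n6a D A B O t _ h' with e2 | e2 <;>
    rw [e1, e2] at e
  · omega
  · rw [show D.ncard = 122 by omega] at h132; norm_num at h132
  · rw [show D.ncard = 122 by omega] at h132; norm_num at h132
  · omega

theorem r1_of (b : Base.{u}) : R1Stmt.{u} := by
  intro G _ _ D h e N hN
  by_cases hA : ∃ A ∈ D, A ≤ N
  · obtain ⟨A, hA, hAN⟩ := hA
    refine Or.inl (top_le_iff.1 (e ▸ sSup_le fun B hB => ?_))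
    obtain ⟨g, rfl⟩ := h.tr A hA B hB
    intro x hx
    have := hN.conj_mem _ (hAN (mem_cj.1 hx)) g
    simpa [mul_assoc] using this
  push Not at hA
  have hp : Fact (Nat.Prime 11) := ⟨by norm_num⟩
  have inf : ∀ A ∈ D, A ⊓ N = ⊥ := fun A hD => by
    have k : Nat.card (A ⊓ N : Subgroup G) ∣ 11 := h.card A hD ▸ card_dvd_of_le inf_le_left
    rcases (Nat.dvd_prime hp.out).1 k with k | k
    · exact card_eq_one.1 k
    · exact absurd (inf_eq_left.1 (eq_of_le_of_card_ge inf_le_left (by rw [k, h.card A hD])))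
        (hA A hD)
  have nrm : ∀ A ∈ D, ∀ n ∈ N, cj n A = A := fun A hD n hn => by
    by_contra hne
    have hB := h.conj A hD n
    obtain ⟨hs, hz⟩ : IsSimpleGroup (A ⊔ cj n A : Subgroup G) ∧
        ∀ g ∈ A ⊔ cj n A, g ∈ Ct (A ⊔ cj n A) → g = 1 := by
      rcases h.pair A hD _ hB (Ne.symm hne) with k | k
      exacts [⟨(b.la _ k).simple, (b.la _ k).ctr⟩, ⟨(b.ja _ k).simple, (b.ja _ k).ctr⟩]
    have hcyc : IsCyclic A := isCyclic_of_prime_card (h.card A hD)
    -- the image of `L` in `G/N` is commutative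
    let π := QuotientGroup.mk' N
    have hle : (A ⊔ cj n A).map π ≤ A.map π := by
      rw [Subgroup.map_sup]
      refine sup_le le_rfl ?_
      rintro _ ⟨x, hx, rfl⟩
      refine ⟨n⁻¹ * x * n, mem_cj.1 hx, ?_⟩
      have : π n = 1 := (QuotientGroup.eq_one_iff n).2 hn
      simp [this]
    have hcomm : ∀ x ∈ A ⊔ cj n A, ∀ y ∈ A ⊔ cj n A, x * y * x⁻¹ * y⁻¹ ∈ N := fun x hx y hy => by
      obtain ⟨a, ha, ea⟩ := hle ⟨x, hx, rfl⟩
      obtain ⟨c, hc, ec⟩ := hle ⟨y, hy, rfl⟩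
      have q : a * c = c * a := congrArg Subtype.val
        ((IsCyclic.isMulCommutative (α := A)).is_comm.comm ⟨a, ha⟩ ⟨c, hc⟩)
      refine (QuotientGroup.eq_one_iff _).1 ?_
      change π _ = 1
      simp only [map_mul, map_inv, ← ea, ← ec]
      rw [← map_mul, q, map_mul]; group
    rcases hs.eq_bot_or_eq_top_of_normal (N.subgroupOf (A ⊔ cj n A)) inferInstance with k | k
    · have k1 : ∀ x ∈ A ⊔ cj n A, x = 1 := fun x hx => hz x hx fun y hy => by
        have m : (⟨_, mul_mem (mul_mem (mul_mem hy hx) (inv_mem hy)) (inv_mem hx)⟩ :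
            (A ⊔ cj n A : Subgroup G)) ∈ N.subgroupOf (A ⊔ cj n A) := hcomm y hy x hx
        rw [k, mem_bot, Subtype.ext_iff] at m
        calc y * x = y * x * y⁻¹ * x⁻¹ * (x * y) := by group
          _ = x * y := by rw [show y * x * y⁻¹ * x⁻¹ = 1 from m, one_mul]
      have : A = ⊥ := eq_bot_iff.2 fun x hx => k1 x (mem_sup_left hx)
      have c := h.card A hD
      rw [this, card_bot] at c; omega
    · exact hA A hD (le_sup_left.trans (subgroupOf_eq_top.1 k))
  refine Or.inr fun n hn => mem_center_iff.2 fun g => ?_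
  have : sSup D ≤ C1 n := sSup_le fun A hD a ha => by
    rw [mem_centralizer_singleton_iff]
    have m1 : n * a * n⁻¹ * a⁻¹ ∈ A :=
      mul_mem ((mem_normalizer_iff.1 (cj_eq_iff.1 (nrm A hD n hn)) a).1 ha) (inv_mem ha)
    have m2 : n * a * n⁻¹ * a⁻¹ ∈ N := by
      have := mul_mem hn (hN.conj_mem _ (inv_mem hn) a)
      simpa [mul_assoc] using this
    have m : n * a * n⁻¹ * a⁻¹ ∈ A ⊓ N := ⟨m1, m2⟩
    rw [inf A hD, mem_bot] at m
    calc a * n = n * a * n⁻¹ * a⁻¹ * (a * n) := by rw [m, one_mul]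
      _ = n * a := by group
  exact mem_centralizer_singleton_iff.1 (this (e ▸ mem_top g))

theorem r3_of (b : Base.{u}) : R3Stmt.{u} := by
  intro G _ _ D X h A hA B hB hAB hAX hBX
  set Y := gen D X
  have le : ∀ E ∈ D, E ≤ X → E ≤ Y := fun E hE hEX => le_sSup ⟨hE, hEX⟩
  have hle : Y ≤ X := sSup_le fun E hE => hE.2
  have inj := map_injective (G := Y) Y.subtype_injective
  have mc : ∀ (g : Y) (E : Subgroup Y), (cj g E).map Y.subtype = cj (g : G) (E.map Y.subtype) :=
    fun g E => by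
      rw [cj, cj, map_map, map_map]; congr 1
  have sub : ∀ E ∈ D, E ≤ X → (E.subgroupOf Y).map Y.subtype = E := fun E hE hEX =>
    map_subgroupOf_eq_of_le (le E hE hEX)
  refine ⟨⟨fun E hE => ?_, fun E hE g => ?_, fun E hE F hF => ?_, fun E hE F hF hne => ?_, ?_⟩, ?_⟩
  · exact (card_map_of_injective Y.subtype_injective).symm.trans (h.card _ hE)
  · show _ ∈ D
    rw [mc]; exact h.conj _ hE g
  · by_cases hne : E = F
    · exact ⟨1, by rw [cj_one, hne]⟩
    have hne' : E.map Y.subtype ≠ F.map Y.subtype := fun k => hne (inj k)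
    have pE : E.map Y.subtype ∈ Pts (E.map Y.subtype ⊔ F.map Y.subtype) :=
      ⟨le_sup_left, h.card _ hE⟩
    have pF : F.map Y.subtype ∈ Pts (E.map Y.subtype ⊔ F.map Y.subtype) :=
      ⟨le_sup_right, h.card _ hF⟩
    obtain ⟨g, hg, e⟩ : ∃ g ∈ E.map Y.subtype ⊔ F.map Y.subtype,
        cj g (E.map Y.subtype) = F.map Y.subtype := by
      rcases h.pair _ hE _ hF hne' with k | k
      exacts [(b.la _ k).tr _ pE _ pF, (b.ja _ k).tr _ pE _ pF]
    have gY : g ∈ Y := (sup_le (map_subtype_le E) (map_subtype_le F)) hg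
    exact ⟨⟨g, gY⟩, inj (by rw [mc]; exact e)⟩
  · have ψ := (E ⊔ F).equivMapOfInjective Y.subtype Y.subtype_injective
    rw [Subgroup.map_sup] at ψ
    rcases h.pair _ hE _ hF fun k => hne (inj k) with ⟨⟨φ⟩⟩ | ⟨⟨φ⟩⟩
    exacts [Or.inl ⟨ψ.trans φ⟩, Or.inr ⟨ψ.trans φ⟩]
  · refine ⟨A.subgroupOf Y, ?_, B.subgroupOf Y, ?_, fun k => hAB ?_⟩
    · show _ ∈ D
      rwa [sub A hA hAX]
    · show _ ∈ D
      rwa [sub B hB hBX]
    · rw [← sub A hA hAX, k, sub B hB hBX]
  · refine inj (le_antisymm (map_mono le_top) ?_)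
    rw [← MonoidHom.range_eq_map, range_subtype]
    refine sSup_le fun E hE => ?_
    rw [← sub E hE.1 hE.2]
    exact map_mono (le_sSup (show _ ∈ D by rw [sub E hE.1 hE.2]; exact hE.1))

end Cfsg.Agent.H11.EL
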