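import Cfsg.Agent.H63.PSDefs
import Cfsg.Agent.H53.PSolv

/-!
# S3019 piece NRM: `A O_{p'}(H)` is normal in a `p`-solvable overgroup `H` of `A`.
-/

set_option autoImplicit false
open Cfsg Subgroup

namespace Cfsg.Agent.H11.PSN

universe u

variable {X : Type*} [Group X] {p : ℕ}

/-- an element of a `p`-subgroup and of a `p'`-subgroup is trivial -/
theorem eq_one_of_mem [Finite X] {P L : Subgroup X} (hP : IsPGroup p P)
    (hL : (Nat.card L).Coprime p) {x : X} (h1 : x ∈ P) (h2 : x ∈ L) : x = 1 := by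
  have h := H3.inf_eq_bot_of_isPGroup_of_coprime hP hL
  have h3 : x ∈ P ⊓ L := ⟨h1, h2⟩
  rw [h] at h3
  exact h3

theorem conj_mem_of_norm {B L : Subgroup X} (h : B ≤ normalizer (L : Set X)) {a l : X}
    (ha : a ∈ B) (hl : l ∈ L) : a * l * a⁻¹ ∈ L :=
  (mem_normalizer_iff.1 (h ha) l).1 hl

/-- (a): a `p'`-subgroup normalized by `B` centralizes `B`. -/
theorem lemA [Finite X] {Q B L : Subgroup X} [hQn : Q.Normal] (hQ : IsPGroup p Q)
    (hC : centralizer (Q : Set X) ≤ Q) (hQB : Q ≤ normalizer (B : Set X))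
    (hB : ∀ a ∈ B, ∀ b ∈ B, a * b = b * a) (hL : (Nat.card L).Coprime p)
    (hBL : B ≤ normalizer (L : Set X)) {a l : X} (ha : a ∈ B) (hl : l ∈ L) : l * a = a * l := by
  -- `L` centralizes `B ∩ Q`
  have c0 : ∀ m ∈ L, ∀ b ∈ B, b ∈ Q → m * b = b * m := by
    intro m hm b hb hbQ
    have h1 : m * b * m⁻¹ * b⁻¹ ∈ Q := Q.mul_mem (hQn.conj_mem b hbQ m) (Q.inv_mem hbQ)
    have h2 : m * b * m⁻¹ * b⁻¹ ∈ L := by
      have := L.mul_mem hm (conj_mem_of_norm hBL hb (L.inv_mem hm))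
      simpa only [mul_assoc] using this
    have h3 := eq_one_of_mem hQ hL h1 h2
    calc m * b = (m * b * m⁻¹ * b⁻¹) * (b * m) := by group
      _ = b * m := by rw [h3, one_mul]
  have c1 : ∀ x ∈ B, ∀ q ∈ Q, x * q * x⁻¹ * q⁻¹ ∈ B ∧ x * q * x⁻¹ * q⁻¹ ∈ Q := by
    intro x hx q hq
    refine ⟨?_, Q.mul_mem (hQn.conj_mem q hq x) (Q.inv_mem hq)⟩
    have := B.mul_mem hx (conj_mem_of_norm hQB hq (B.inv_mem hx))
    simpa only [mul_assoc] using this
  set r := a⁻¹ * (l * a * l⁻¹) with hr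
  have hrL : r ∈ L := by
    have := L.mul_mem (conj_mem_of_norm hBL (B.inv_mem ha) hl) (L.inv_mem hl)
    simpa only [hr, mul_assoc, inv_inv] using this
  have hrQ : r ∈ Q := by
    apply hC
    rw [mem_centralizer_iff]
    intro q hq
    have hq' : l⁻¹ * q * l ∈ Q := by simpa using hQn.conj_mem q hq l⁻¹
    obtain ⟨b1B, b1Q⟩ := c1 a ha _ hq'
    obtain ⟨b2B, b2Q⟩ := c1 a⁻¹ (B.inv_mem ha) q hq
    set b1 := a * (l⁻¹ * q * l) * a⁻¹ * (l⁻¹ * q * l)⁻¹ with hb1
    set b2 := a⁻¹ * q * a⁻¹⁻¹ * q⁻¹ with hb2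
    have e1 : l * b1 = b1 * l := c0 l hl b1 b1B b1Q
    have e2 : a * b1 = b1 * a := hB a ha b1 b1B
    have e3 : r * q * r⁻¹ = (b1 * b2) * q := by
      have f1 : r * q * r⁻¹ = a⁻¹ * (l * b1 * l⁻¹) * q * a := by
        rw [hr, hb1]; group
      have f2 : l * b1 * l⁻¹ = b1 := by rw [e1]; group
      have f3 : a⁻¹ * b1 = b1 * a⁻¹ := by
        calc a⁻¹ * b1 = a⁻¹ * (b1 * a) * a⁻¹ := by group
          _ = b1 * a⁻¹ := by rw [← e2]; group
      rw [f1, f2, f3, hb2]; group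
    have hbB : b1 * b2 ∈ B := B.mul_mem b1B b2B
    have hbQ : b1 * b2 ∈ Q := Q.mul_mem b1Q b2Q
    generalize b1 * b2 = b at e3 hbB hbQ
    have e4 : r * b = b * r := c0 r hrL b hbB hbQ
    have e5 : ∀ j : ℕ, r ^ j * q = b ^ j * q * r ^ j := by
      intro j
      induction j with
      | zero => simp
      | succ j ih =>
        have g1 : r * b ^ j = b ^ j * r := (Commute.pow_right e4 j).eq
        have g2 : r * q = b * q * r := by rw [← e3]; group
        calc r ^ (j + 1) * q = r * (r ^ j * q) := by rw [pow_succ']; group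
          _ = (r * b ^ j) * q * r ^ j := by rw [ih]; group
          _ = b ^ j * (r * q) * r ^ j := by rw [g1]; group
          _ = b ^ (j + 1) * q * r ^ (j + 1) := by rw [g2, pow_succ b, pow_succ' r]; group
    have e6 : r ^ Nat.card L = 1 := by
      have := pow_card_eq_one' (G := L) (x := ⟨r, hrL⟩)
      exact congrArg Subtype.val this
    have e7 : b ^ Nat.card L = 1 := by
      have := e5 (Nat.card L)
      rw [e6, one_mul, mul_one] at this
      exact (mul_eq_right.1 this.symm)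
    obtain ⟨k, hk⟩ := hQ ⟨b, hbQ⟩
    have e8 : b ^ p ^ k = 1 := congrArg Subtype.val hk
    have e9 : b = 1 := by
      have := pow_gcd_eq_one.2 ⟨e7, e8⟩
      rwa [(Nat.Coprime.pow_right k hL).gcd_eq_one, pow_one] at this
    rw [e9, one_mul] at e3
    calc q * r = (r * q * r⁻¹) * r := by rw [e3]
      _ = r * q := by group
  have h1 := eq_one_of_mem hQ hL hrQ hrL
  calc l * a = a * r * l := by rw [hr]; group
    _ = a * l := by rw [h1, mul_one]

/-- an element of order dividing `p` commuting with its conjugates lies in `O_p` -/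
theorem mem_pCore_of_comm {d : X} (hd : d ^ p = 1)
    (hc : ∀ h : X, d * (h * d * h⁻¹) = (h * d * h⁻¹) * d) : d ∈ pCore p X := by
  set N := normalClosure ({d} : Set X)
  have hgen : ∀ c ∈ Group.conjugatesOfSet ({d} : Set X), ∃ g : X, c = g * d * g⁻¹ := by
    intro c hc
    obtain ⟨a, ha, h⟩ := Group.mem_conjugatesOfSet_iff.1 hc
    rw [Set.mem_singleton_iff.1 ha] at h
    obtain ⟨g, hg⟩ := isConj_iff.1 h
    exact ⟨g, hg.symm⟩
  have hcomm : ∀ x ∈ N, ∀ y ∈ N, Commute x y := by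
    intro x hx y hy
    induction hx, hy using closure_induction₂ with
    | mem x y hx hy =>
      obtain ⟨g, rfl⟩ := hgen x hx
      obtain ⟨g', rfl⟩ := hgen y hy
      have := hc (g⁻¹ * g')
      show g * d * g⁻¹ * (g' * d * g'⁻¹) = g' * d * g'⁻¹ * (g * d * g⁻¹)
      calc g * d * g⁻¹ * (g' * d * g'⁻¹)
          = g * (d * (g⁻¹ * g' * d * (g⁻¹ * g')⁻¹)) * g⁻¹ := by group
        _ = _ := by rw [this]; group
    | one_left x _ => exact Commute.one_left x
    | one_right x _ => exact Commute.one_right x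
    | mul_left x y z _ _ _ h1 h2 => exact h1.mul_left h2
    | mul_right y z x _ _ _ h1 h2 => exact h1.mul_right h2
    | inv_left x y _ _ h => exact h.inv_left
    | inv_right x y _ _ h => exact h.inv_right
  have hp : ∀ x ∈ N, x ^ p = 1 := by
    intro x hx
    induction hx using closure_induction with
    | mem x hx =>
      obtain ⟨g, rfl⟩ := hgen x hx
      rw [conj_pow, hd]; group
    | one => exact one_pow p
    | mul x y hx hy h1 h2 => rw [(hcomm x hx y hy).mul_pow, h1, h2, one_mul]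
    | inv x _ h => rw [inv_pow, h, inv_one]
  have hN : IsPGroup p N := fun x => ⟨1, Subtype.ext (by simpa using hp x x.2)⟩
  exact H3.le_pCore hN (subset_normalClosure (Set.mem_singleton d))

/-- a `p`-subgroup of `A O` is conjugate into `A` by an element of `O` -/
theorem conj_into [Finite X] [Fact p.Prime] {O A A' : Subgroup X} [hOn : O.Normal]
    (hO : (Nat.card O).Coprime p) (hA : IsPGroup p A) (hA' : IsPGroup p A') (h : A' ≤ A ⊔ O) :
    ∃ o ∈ O, ∀ x ∈ A', o⁻¹ * x * o ∈ A := by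
  set Z := A ⊔ O with hZ
  obtain ⟨R, hR⟩ := (hA.comap_subtype (K := Z)).exists_le_sylow
  obtain ⟨R', hR'⟩ := (hA'.comap_subtype (K := Z)).exists_le_sylow
  have hRA : ∀ r : Z, r ∈ (R : Subgroup Z) → (r : X) ∈ A := by
    intro r hr
    obtain ⟨a, ha, o, ho, e⟩ := mem_sup_of_normal_right.1 r.2
    have haZ : a ∈ Z := (le_sup_left : A ≤ Z) ha
    have h1 : (⟨a, haZ⟩ : Z)⁻¹ * r ∈ (R : Subgroup Z) :=
      (R : Subgroup Z).mul_mem ((R : Subgroup Z).inv_mem (hR ha)) hr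
    have h2 : o ∈ (R : Subgroup Z).map Z.subtype :=
      ⟨_, h1, by simp [← e]⟩
    have h3 := eq_one_of_mem (R.isPGroup'.map Z.subtype) hO h2 ho
    rw [← e, h3, mul_one]
    exact ha
  obtain ⟨g, hg⟩ := MulAction.exists_smul_eq Z R' R
  obtain ⟨a, ha, o, ho, e⟩ := mem_sup_of_normal_right.1 g.2
  refine ⟨o⁻¹, O.inv_mem ho, fun x hx => ?_⟩
  have h1 : (⟨x, h hx⟩ : Z) ∈ (R' : Subgroup Z) := hR' hx
  have h2 : g * ⟨x, h hx⟩ * g⁻¹ ∈ (R : Subgroup Z) := by
    rw [← hg, Sylow.coe_subgroup_smul]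
    exact ⟨_, h1, rfl⟩
  have h3 := hRA _ h2
  have h4 : a⁻¹ * ((g : X) * x * (g : X)⁻¹) * a ∈ A :=
    A.mul_mem (A.mul_mem (A.inv_mem ha) h3) ha
  rw [← e] at h4
  have e2 : a⁻¹ * (a * o * x * (a * o)⁻¹) * a = o⁻¹⁻¹ * x * o⁻¹ := by group
  rwa [e2] at h4

theorem isPGroup_zpowers {d : X} {k : ℕ} (hd : d ^ p ^ k = 1) : IsPGroup p (zpowers d) := by
  rintro ⟨x, n, rfl⟩
  refine ⟨k, Subtype.ext ?_⟩
  show (d ^ n) ^ p ^ k = 1
  rw [← zpow_natCast, ← zpow_mul, mul_comm, zpow_mul, zpow_natCast, hd, one_zpow]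

theorem core [Finite X] [Fact p.Prime] (hX : IsPSolvable p X) (B : Subgroup X) (D : Set X)
    (hDc : ∀ d ∈ D, ∀ h : X, h * d * h⁻¹ ∈ D) (hDp : ∀ d ∈ D, d ^ p = 1)
    (hB : B ≤ closure (D ∩ B)) (hc : ∀ a ∈ B, ∀ b ∈ B, a * b = b * a)
    (T : Sylow p X) (hT : B ≤ T) (hTn : (T : Subgroup X) ≤ normalizer (B : Set X))
    (hTD : ∀ d ∈ D, d ∈ (T : Subgroup X) → d ∈ B)
    (hL : ∀ d0 ∈ D, d0 ∈ B → ∀ d ∈ D, ∃ L : Subgroup X, (Nat.card L).Coprime p ∧
      B ≤ normalizer (L : Set X) ∧ d0⁻¹ * d⁻¹ * d0 * d ∈ L) :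
    (∀ d ∈ D, ∃ a ∈ B, ∃ o ∈ pPrimeCore p X, d = a * o) ∧
      ∀ h : X, ∃ o ∈ pPrimeCore p X, o⁻¹ * h ∈ normalizer (B : Set X) := by
  set O := pPrimeCore p X with hO
  have hOc : (Nat.card O).Coprime p := H3.pPrimeCore_coprime p X
  set π := QuotientGroup.mk' O with hπ
  have hπs : Function.Surjective π := QuotientGroup.mk'_surjective O
  set Q := pCore p (X ⧸ O) with hQ
  have hQp : IsPGroup p Q := H3.pCore_isPGroup p _
  have hC : centralizer (Q : Set (X ⧸ O)) ≤ Q :=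
    H53.centralizer_pCore_le (H53.isPSolvable_quotient hX O) (H3.pPrimeCore_quotient_pPrimeCore p X)
  have hQT : Q ≤ (T : Subgroup X).map π := H3.pCore_le_sylow (T.mapSurjective hπs)
  have hBp : IsPGroup p B := T.isPGroup'.to_le hT
  have hQB : Q ≤ normalizer ((B.map π : Subgroup (X ⧸ O)) : Set (X ⧸ O)) :=
    hQT.trans ((map_mono hTn).trans (le_normalizer_map π))
  have hcB : ∀ a ∈ B.map π, ∀ b ∈ B.map π, a * b = b * a := by
    rintro _ ⟨a, ha, rfl⟩ _ ⟨b, hb, rfl⟩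
    rw [← map_mul, hc a ha b hb, map_mul]
  -- (b)
  have hb : ∀ d0 ∈ D, d0 ∈ B → π d0 ∈ Q := by
    intro d0 hd0 hd0B
    apply mem_pCore_of_comm
    · rw [← map_pow, hDp d0 hd0, map_one]
    intro h
    obtain ⟨h, rfl⟩ := hπs h
    obtain ⟨L, hLc, hLn, hy⟩ := hL d0 hd0 hd0B _ (hDc d0 hd0 h)
    set d := h * d0 * h⁻¹ with hd
    set y := d0⁻¹ * d⁻¹ * d0 * d with hy'
    have hLc' : (Nat.card (L.map π)).Coprime p :=
      Nat.Coprime.coprime_dvd_left (card_map_dvd L π) hLc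
    have h1 : π y * π d0 = π d0 * π y :=
      lemA hQp hC hQB hcB hLc' ((map_mono hLn).trans (le_normalizer_map π))
        (mem_map_of_mem π hd0B) (mem_map_of_mem π hy)
    have h2 : (d0 * y) ^ p = 1 := by
      have : d0 * y = d⁻¹ * d0 * d⁻¹⁻¹ := by rw [hy']; group
      rw [this, conj_pow, hDp d0 hd0]; group
    have h3 : π y ^ p = 1 := by
      have := congrArg π h2
      rw [map_pow, map_mul, (Commute.mul_pow h1.symm p), ← map_pow π d0, hDp d0 hd0, map_one,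
        one_mul] at this
      exact this
    have h4 : π y = 1 :=
      eq_one_of_mem (isPGroup_zpowers (k := 1) (by rwa [pow_one])) hLc' (mem_zpowers _)
        (mem_map_of_mem π hy)
    have h5 : π h * π d0 * (π h)⁻¹ = π d := by rw [hd]; simp
    rw [h5]
    have h6 : π y = (π d0)⁻¹ * (π d)⁻¹ * π d0 * π d := by rw [hy']; simp
    calc π d0 * π d = π d * π d0 * π y := by rw [h6]; group
      _ = π d * π d0 := by rw [h4, mul_one]
  -- (c)
  have hc1 : ∀ d ∈ D, ∃ a ∈ B, ∃ o ∈ O, d = a * o := by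
    intro d hd
    have hdz : IsPGroup p (zpowers d) := isPGroup_zpowers (k := 1) (by rw [pow_one, hDp d hd])
    obtain ⟨T', hT'⟩ := hdz.exists_le_sylow
    obtain ⟨g, hg⟩ := MulAction.exists_smul_eq X T' T
    have h1 : g * d * g⁻¹ ∈ (T : Subgroup X) := by
      rw [← hg, Sylow.coe_subgroup_smul]
      exact ⟨_, hT' (mem_zpowers d), rfl⟩
    have h2 := hb _ (hDc d hd g) (hTD _ (hDc d hd g) h1)
    have h3 : π d ∈ Q := by
      have := (inferInstance : Q.Normal).conj_mem _ h2 (π g)⁻¹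
      have e : (π g)⁻¹ * π (g * d * g⁻¹) * (π g)⁻¹⁻¹ = π d := by simp [mul_assoc]
      rwa [e] at this
    obtain ⟨t, ht, e⟩ := hQT h3
    have ho : t⁻¹ * d ∈ O := QuotientGroup.eq.1 e
    obtain ⟨k, hk⟩ := T.isPGroup' ⟨t, ht⟩
    have htz : IsPGroup p (zpowers t) := isPGroup_zpowers (k := k) (congrArg Subtype.val hk)
    have hle : zpowers d ≤ zpowers t ⊔ O := by
      rw [zpowers_le]
      have := mul_mem_sup (mem_zpowers t) ho
      simpa using this
    obtain ⟨o, hoO, hconj⟩ := conj_into hOc htz hdz hle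
    have h4 := hconj d (mem_zpowers d)
    have h5 : o⁻¹ * d * o ∈ D := by simpa using hDc d hd o⁻¹
    have h6 : o⁻¹ * d * o ∈ B := hTD _ h5 ((zpowers_le.2 ht : zpowers t ≤ (T : Subgroup X)) h4)
    refine ⟨_, h6, (o⁻¹ * d * o)⁻¹ * d, ?_, by group⟩
    have h7 := O.mul_mem (O.inv_mem hoO)
      ((inferInstance : O.Normal).conj_mem o hoO d⁻¹)
    have e : o⁻¹ * (d⁻¹ * o * d⁻¹⁻¹) = (o⁻¹ * d * o)⁻¹ * d := by group
    rwa [e] at h7
  refine ⟨hc1, fun h => ?_⟩
  -- (d)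
  have hle : B.map (MulAut.conj h).toMonoidHom ≤ B ⊔ O := by
    rw [map_le_iff_le_comap]
    refine hB.trans ((closure_le _).2 fun d hd => ?_)
    obtain ⟨a, ha, o, ho, e⟩ := hc1 _ (hDc d hd.1 h)
    show h * d * h⁻¹ ∈ B ⊔ O
    rw [e]
    exact mul_mem_sup ha ho
  obtain ⟨o, hoO, hconj⟩ := conj_into hOc hBp (hBp.map _) hle
  refine ⟨o, hoO, mem_normalizer_fintype fun x hx => ?_⟩
  have := hconj _ (mem_map_of_mem _ hx)
  have e : o⁻¹ * h * x * (o⁻¹ * h)⁻¹ = o⁻¹ * (h * x * h⁻¹) * o := by group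
  rw [e]
  exact this

open Cfsg.Agent.H63.PS in
theorem nrm : NrmStmt.{u} := by
  intro p _ G _ _ P z hz hzP hl H hH hAH
  set A := AA P z with hA
  have hAp : IsPGroup p A := P.isPGroup'.to_le (AA_le _ _)
  obtain ⟨T, hT⟩ := (hAp.comap_subtype (K := H)).exists_le_sylow
  obtain ⟨S, hS⟩ := (T.isPGroup'.map H.subtype).exists_le_sylow
  have hAS : A ≤ S := fun a ha => hS ⟨⟨a, hAH ha⟩, hT ha, rfl⟩
  have hTS : ∀ t : H, t ∈ (T : Subgroup H) → (t : G) ∈ (S : Subgroup G) :=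
    fun t ht => hS ⟨t, ht, rfl⟩
  have key := core hH (A.subgroupOf H) {x : H | IsConj z (x : G)}
    (fun d hd h => hd.trans (isConj_iff.2 ⟨h, rfl⟩))
    (fun d hd => by
      obtain ⟨g, hg⟩ := isConj_iff.1 hd
      apply Subtype.ext
      show (d : G) ^ p = 1
      rw [← hg, conj_pow, ← hz, pow_orderOf_eq_one]; group)
    (by
      intro a ha
      have h1 : (a : G) ∈ closure {x | x ∈ (P : Subgroup G) ∧ IsConj z x} := ha
      have h2 : closure {x | x ∈ (P : Subgroup G) ∧ IsConj z x} ≤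
          (closure ({x : H | IsConj z (x : G)} ∩ (A.subgroupOf H : Set H))).map H.subtype := by
        rw [closure_le]
        intro x hx
        have hxA : x ∈ A := mem_AA hx.1 hx.2
        exact ⟨⟨x, hAH hxA⟩, subset_closure ⟨hx.2, hxA⟩, rfl⟩
      obtain ⟨b, hb, e⟩ := h2 h1
      rwa [← Subtype.ext e])
    (fun a ha b hb => Subtype.ext (hl.comm a ha b hb)) T hT
    (fun t ht => by
      have := hl.nrm S hAS (hTS t ht)
      rw [mem_normalizer_iff] at this ⊢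
      intro x
      exact this x)
    (fun d hd hdT => hl.wc S hAS d (hTS d hdT) hd)
    (fun d0 hd0 hd0A d hd => by
      obtain ⟨S1, hS1, hc1⟩ := hl.cen d0 hd0 A hAp (fun y hy => hl.comm d0 hd0A y hy)
      obtain ⟨S2, -, hc2⟩ := hl.cen d hd ⊥ IsPGroup.of_bot (fun y hy => by
        rw [mem_bot.1 hy, mul_one, one_mul])
      have hy := hl.pair S1 S2 d0 d hc1 hc2
      set K := OO p ((S1 : Subgroup G) ⊔ (S2 : Subgroup G)) with hK
      refine ⟨K.subgroupOf H, ?_, ?_, hy⟩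
      · rw [H3.card_subgroupOf]
        exact H3.coprime_card_of_le inf_le_left (H3.map_pPrimeCore_coprime _)
      · intro a ha
        have h1 : (a : G) ∈ normalizer (K : Set G) :=
          H3.normalizer_le_normalizer_map_pPrimeCore _
            (le_normalizer ((le_sup_left : (S1 : Subgroup G) ≤ _) (hS1 ha)))
        rw [mem_normalizer_iff] at h1 ⊢
        intro x
        exact h1 x)
  refine ⟨fun d hdH hd => ?_, fun h hh => ?_⟩
  · obtain ⟨a, ha, o, ho, e⟩ := key.1 ⟨d, hdH⟩ hd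
    exact ⟨a, ha, o, ⟨o, ho, rfl⟩, congrArg Subtype.val e⟩
  · obtain ⟨o, ho, e⟩ := key.2 ⟨h, hh⟩
    refine ⟨o, ⟨o, ho, rfl⟩, mem_normalizer_fintype fun x hx => ?_⟩
    exact (mem_normalizer_iff.1 e ⟨x, hAH hx⟩).1 hx

end Cfsg.Agent.H11.PSN
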