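import Cfsg.Agent.H11.AbCent
import Cfsg.Agent.H67.Conj

/-! A TI-subgroup inverted by an involution in a group with many involutions: basic facts. -/

set_option autoImplicit false

namespace Cfsg.Agent.H11

open MulAction Subgroup Cfsg.Agent.H10 Cfsg.Agent.H61 Cfsg.Agent.H63 Cfsg.Agent.H67

variable {G : Type*} [Group G] {M : Subgroup G} {z : G}

/-- The hypotheses on the TI-subgroup `M` and the involution `z`. -/
structure TIH (M : Subgroup G) (z : G) : Prop where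
  ne : M ≠ ⊥
  ti : ∀ g : G, ∀ x ∈ M, x ≠ 1 → g * x * g⁻¹ ∈ M → g ∈ N[M]
  ord : orderOf z = 2
  mem : z ∈ N[M]
  fac : ∀ n ∈ N[M], ∃ x ∈ M, ∃ c ∈ N[M], Commute c z ∧ n = x * c
  odd : ∀ x ∈ M, x ≠ 1 → Odd (Nat.card C1[x])

namespace TIH

variable (h : TIH M z)
include h

theorem zz : z * z = 1 := mul_self_of_orderOf_two h.ord

theorem z_ne : z ≠ 1 := ne_one_of_orderOf_two h.ord

theorem eq_one {t x : G} (ht : t * t = 1) (hx : x ∈ M) (h1 : x ≠ 1) (hc : Commute t x) : t = 1 :=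
  eq_one_of_sq_of_odd (h.odd x hx h1) (mem_centralizer_singleton_iff.2 hc) ht

theorem eq_one' {t x : G} (ht : t * t = 1) (h1 : t ≠ 1) (hx : x ∈ M) (hc : Commute t x) : x = 1 :=
  by_contra fun e => h1 (h.eq_one ht hx e hc)

theorem sq {x : G} (hx : x ∈ M) (h2 : x * x = 1) : x = 1 :=
  by_contra fun e => e (h.eq_one h2 hx e rfl)

variable [Finite G]

theorem inverts {t : G} (ht : t * t = 1) (h1 : t ≠ 1) (hN : t ∈ N[M]) :
    ∀ x ∈ M, t * x * t⁻¹ = x⁻¹ :=
  inverts_of_fixedPointFree ht (fun _ hd => conj_mem_of_mem_normalizer hN hd)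
    fun _ hd hc => h.eq_one' ht h1 hd hc.symm

theorem zinv {x : G} (hx : x ∈ M) : z * x * z⁻¹ = x⁻¹ := h.inverts h.zz h.z_ne h.mem x hx

theorem zx {x : G} (hx : x ∈ M) : z * x = x⁻¹ * z := by rw [← h.zinv hx]; group

theorem comm {x y : G} (hx : x ∈ M) (hy : y ∈ M) : x * y = y * x :=
  comm_of_inverted (fun _ ha => h.zinv ha) x hx y hy

theorem conj_z {y : G} (hy : y ∈ M) : y * z * y⁻¹ = y * y * z := by
  rw [mul_assoc, h.zx (inv_mem hy), inv_inv, mul_assoc]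

theorem odd_card : Odd (Nat.card M) := by
  by_contra he
  obtain ⟨t, h1, h2⟩ := exists_involution_of_even (Nat.not_odd_iff_even.1 he)
  exact h1 (Subtype.ext (h.sq t.2 (congrArg Subtype.val h2)))

/-- the involutions of `N(M)` are the conjugates of `z` under `M`. -/
theorem exists_conj {t : G} (ht : t * t = 1) (h1 : t ≠ 1) (hN : t ∈ N[M]) :
    ∃ y ∈ M, t = y * z * y⁻¹ := by
  obtain ⟨x, hx, c, hc, hcz, rfl⟩ := h.fac t hN
  obtain ⟨a, ha, ha1⟩ := (Subgroup.bot_or_exists_ne_one M).resolve_left h.ne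
  have hi := h.inverts ht h1 hN
  have hc1 : ∀ y ∈ M, c * y * c⁻¹ = y⁻¹ := fun y hy => by
    have := hi y hy
    calc c * y * c⁻¹ = x⁻¹ * (x * c * y * (x * c)⁻¹) * x := by group
      _ = y⁻¹ := by rw [this, h.comm (inv_mem hx) (inv_mem hy)]; group
  have hcc : c * c = 1 := by
    have e1 : c * c = 1 * (c * c) := (one_mul _).symm
    have e2 : x * c * (x * c) = x * (c * x * c⁻¹) * (c * c) := by group
    rw [e2, hc1 x hx, mul_inv_cancel] at ht
    exact e1.trans ht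
  have hcz1 : c * z = 1 := by
    refine h.eq_one (x := a) ?_ ha ha1 ?_
    · calc c * z * (c * z) = c * c * (z * z) := by rw [mul_assoc, ← mul_assoc z, ← hcz.eq]; group
        _ = 1 := by rw [hcc, h.zz, mul_one]
    · change c * z * a = a * (c * z)
      rw [mul_assoc, h.zx ha, ← mul_assoc, ← mul_assoc]
      congr 1
      have := hc1 _ (inv_mem ha)
      rw [inv_inv] at this
      exact mul_inv_eq_iff_eq_mul.1 this
  have hcz2 : c = z := by rw [eq_inv_of_mul_eq_one_left hcz1, inv_eq_of_mul_eq_one_right h.zz]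
  obtain ⟨y, hy, e⟩ := exists_sq_eq_of_odd h.odd_card hx
  exact ⟨y, hy, by rw [h.conj_z hy, e, hcz2]⟩

theorem eq_one_of_commute_conj {u c : G} (hu : u * u = 1) (h1 : u ≠ 1) (huz : Commute u z)
    (hc : c ∈ M) (h2 : Commute u (c * z * c⁻¹)) : c = 1 := by
  have h3 := h2.mul_right huz
  rw [h.conj_z hc, mul_assoc, h.zz, mul_one] at h3
  exact h.sq hc (h.eq_one' hu h1 (mul_mem hc hc) h3)

omit [Finite G] in
theorem eq_of_coset {u v : G} (hu : u * u = 1) (hv : v * v = 1) (hN : u ∉ N[M])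
    (huv : u⁻¹ * v ∈ M) : u = v := by
  by_contra hne
  refine hN (h.ti u _ huv (fun e => hne (inv_mul_eq_one.1 e)) ?_)
  have := inv_mem huv
  rw [mul_inv_rev, inv_inv, inv_eq_of_mul_eq_one_right hv] at this
  rwa [mul_inv_cancel_left, inv_eq_of_mul_eq_one_right hu]

/-- If a coset of `M` outside `N(M)` has no involution then there are few involutions. -/
theorem card_le {g : G} (hg : g ∉ N[M]) (h0 : ∀ x ∈ M, g * x * (g * x) ≠ 1) :
    Nat.card {t : G // orderOf t = 2} ≤ M.index := by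
  classical
  have hz : ∀ t : {t : G // orderOf t = 2}, t.1 ∈ N[M] → t.1 * z ∈ M := fun t ht => by
    obtain ⟨y, hy, e⟩ := h.exists_conj (mul_self_of_orderOf_two t.2) (ne_one_of_orderOf_two t.2) ht
    rw [e, h.conj_z hy, mul_assoc, h.zz, mul_one]
    exact mul_mem hy hy
  have key : ∀ x ∈ M, ∀ t : G, t * t = 1 → ((x * g : G) : G ⧸ M) ≠ t := fun x hx t ht e => by
    have h1 := QuotientGroup.eq.1 e
    refine h0 _ (mul_mem h1 hx) ?_
    calc _ = x⁻¹ * (t * t) * x := by group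
      _ = 1 := by rw [ht]; group
  refine Nat.card_le_card_of_injective (fun t : {t : G // orderOf t = 2} =>
    if t.1 ∈ N[M] then ((t.1 * z * g : G) : G ⧸ M) else (t.1 : G ⧸ M)) fun s t e => ?_
  by_cases hs : s.1 ∈ N[M] <;> by_cases ht : t.1 ∈ N[M] <;> simp only [hs, ht, if_true, if_false] at e
  · have h1 := QuotientGroup.eq.1 e
    by_contra hne
    refine hg ((Subgroup.inv_mem_iff _).1 (h.ti g⁻¹ _ (mul_mem (inv_mem (hz s hs)) (hz t ht))
      (fun e1 => hne (Subtype.ext (mul_right_cancel (inv_mul_eq_one.1 e1)))) ?_))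
    convert h1 using 1
    group
  · exact (key _ (hz s hs) _ (mul_self_of_orderOf_two t.2) e).elim
  · exact (key _ (hz t ht) _ (mul_self_of_orderOf_two s.2) e.symm).elim
  · exact Subtype.ext (h.eq_of_coset (mul_self_of_orderOf_two s.2) (mul_self_of_orderOf_two t.2) hs
      (QuotientGroup.eq.1 e))

end TIH

/-- Every coset of `M` outside `N(M)` contains an involution. -/
structure TIM (M : Subgroup G) (z : G) : Prop extends TIH M z where
  many : ∀ g ∉ N[M], ∃ x ∈ M, g * x * (g * x) = 1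
  nn : ∃ g, g ∉ N[M]

theorem not_mem_mul {N : Subgroup G} {u n : G} (hu : u ∉ N) (hn : n ∈ N) : u * n ∉ N :=
  fun e => hu ((N.mul_mem_cancel_right hn).1 e)

theorem not_mem_mul' {N : Subgroup G} {u n : G} (hu : u ∉ N) (hn : n ∈ N) : n * u ∉ N :=
  fun e => hu ((N.mul_mem_cancel_left hn).1 e)

theorem ne_one_of_not_mem {N : Subgroup G} {u : G} (hu : u ∉ N) : u ≠ 1 :=
  fun e => hu (e ▸ N.one_mem)

namespace TIM

variable [Finite G] (h : TIM M z)
include h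

omit [Finite G] in
theorem exists_inverted {u n : G} (hN : u ∉ N[M]) (hn : n ∈ N[M]) :
    ∃ x ∈ M, u * (n * x) * u = (n * x)⁻¹ := by
  obtain ⟨x, hx, e⟩ := h.many _ (not_mem_mul hN hn)
  exact ⟨x, hx, eq_inv_of_mul_eq_one_left (by rw [← e]; group)⟩

/-- every involution is conjugate under `M` into `C(z)`. -/
theorem exists_conj_commute {s : G} (hs : s * s = 1) (h1 : s ≠ 1) :
    ∃ y ∈ M, Commute (y⁻¹ * s * y) z := by
  by_cases hN : s ∈ N[M]
  · obtain ⟨y, hy, rfl⟩ := h.exists_conj hs h1 hN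
    exact ⟨y, hy, by simp [mul_assoc]⟩
  obtain ⟨x, hx, e⟩ := h.exists_inverted hN h.mem
  have h2 : z * x * (z * x) = 1 := by
    rw [h.zx hx, mul_assoc, ← mul_assoc z, h.zx (inv_mem hx), inv_inv, mul_assoc, h.zz]; group
  have h3 : z * x ≠ 1 := fun e1 => h.z_ne (h.sq (eq_inv_of_mul_eq_one_left e1 ▸ inv_mem hx) h.zz)
  obtain ⟨y, hy, e1⟩ := h.exists_conj h2 h3 (mul_mem h.mem (le_normalizer hx))
  rw [inv_eq_of_mul_eq_one_right h2, e1] at e
  refine ⟨y, hy, ?_⟩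
  change y⁻¹ * s * y * z = z * (y⁻¹ * s * y)
  calc y⁻¹ * s * y * z = y⁻¹ * (s * (y * z * y⁻¹) * s) * s⁻¹ * y := by group
    _ = z * (y⁻¹ * s * y) := by rw [e, inv_eq_of_mul_eq_one_right hs]; group

theorem commute_of_conj_mem {u y : G} (hu : u * u = 1) (hN : u ∉ N[M]) (huz : Commute u z)
    (hy : y ∈ N[M]) (huy : u * y * u ∈ N[M]) : Commute y z := by
  have key : ∀ w ∈ N[M], w * z * w⁻¹ * z ∈ M := fun w hw => by
    obtain ⟨a, ha, e⟩ := h.exists_conj (t := w * z * w⁻¹)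
      (by rw [conj_mul, h.zz]; group) (by simpa using h.z_ne) (mul_mem (mul_mem hw h.mem) (inv_mem hw))
    rw [e, h.conj_z ha, mul_assoc, h.zz, mul_one]
    exact mul_mem ha ha
  have hu' := inv_eq_of_mul_eq_one_right hu
  have h1 : y * z * y⁻¹ * z = 1 := by
    by_contra hne
    refine hN (h.ti u _ (key y hy) hne ?_)
    convert key _ huy using 1
    calc u * (y * z * y⁻¹ * z) * u⁻¹ = u * y * u * (u⁻¹ * z * u) * u⁻¹ * y⁻¹ * u⁻¹ * (u * z * u⁻¹) := by
          group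
      _ = _ := by rw [huz.mul_inv_cancel, huz.inv_mul_cancel]; group
  have h2 := eq_inv_of_mul_eq_one_left h1
  rw [inv_eq_of_mul_eq_one_right h.zz] at h2
  exact mul_inv_eq_iff_eq_mul.1 h2

theorem mul_self {g : G} (hN : g ∉ N[M]) (hz : Commute g z) : g * g = 1 := by
  obtain ⟨x, hx, e⟩ := h.many g hN
  have e1 : z * (g * x) * z⁻¹ = g * x⁻¹ := by rw [← h.zinv hx, ← mul_assoc, ← hz.eq]; group
  have e2 : g * x⁻¹ * (g * x⁻¹) = 1 := by rw [← e1, conj_mul, e]; group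
  have e3 := h.eq_of_coset e e2 (not_mem_mul hN (le_normalizer hx))
    (by rw [mul_inv_rev, mul_assoc, inv_mul_cancel_left]; exact mul_mem (inv_mem hx) (inv_mem hx))
  have e4 : x = 1 := h.sq hx (by nth_rewrite 2 [mul_left_cancel e3]; exact mul_inv_cancel x)
  simpa [e4] using e

theorem inverts_K {u c : G} (hN : u ∉ N[M]) (huz : Commute u z) (hc : c ∈ N[M])
    (hcz : Commute c z) : u * c * u⁻¹ = c⁻¹ := by
  have hu := h.mul_self hN huz
  have h1 := h.mul_self (not_mem_mul hN hc) (huz.mul_left hcz)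
  rw [inv_eq_of_mul_eq_one_right hu]
  exact eq_inv_of_mul_eq_one_left (by rw [← h1]; group)

theorem exists_u : ∃ u ∉ N[M], Commute u z := by
  obtain ⟨g, hg⟩ := h.nn
  obtain ⟨x, hx, e⟩ := h.many g hg
  have h1 := not_mem_mul hg (le_normalizer hx)
  obtain ⟨y, hy, hc⟩ := h.exists_conj_commute e (ne_one_of_not_mem h1)
  exact ⟨_, not_mem_mul (not_mem_mul' h1 (le_normalizer (inv_mem hy))) (le_normalizer hy), hc⟩

theorem decomp {g : G} (hg : g ∉ N[M]) :
    ∃ a ∈ M, ∃ u ∉ N[M], ∃ b ∈ M, Commute u z ∧ g = a * u * b := by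
  obtain ⟨x, hx, e⟩ := h.many g hg
  have h1 := not_mem_mul hg (le_normalizer hx)
  obtain ⟨y, hy, hc⟩ := h.exists_conj_commute e (ne_one_of_not_mem h1)
  exact ⟨y, hy, _, not_mem_mul (not_mem_mul' h1 (le_normalizer (inv_mem hy))) (le_normalizer hy),
    y⁻¹ * x⁻¹, mul_mem (inv_mem hy) (inv_mem hx), hc, by group⟩

theorem decomp_unique {a b u a' b' u' : G} (ha : a ∈ M) (hb : b ∈ M) (hu : u ∉ N[M])
    (huz : Commute u z) (ha' : a' ∈ M) (hb' : b' ∈ M) (hu' : u' ∉ N[M]) (huz' : Commute u' z)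
    (e : a * u * b = a' * u' * b') : a = a' ∧ u = u' ∧ b = b' := by
  have h1 := h.mul_self hu huz
  have h2 := h.mul_self hu' huz'
  have e1 : u = (a⁻¹ * a') * u' * (a⁻¹ * a')⁻¹ := by
    refine h.eq_of_coset h1 (by rw [conj_mul, h2]; group) hu ?_
    have : u⁻¹ * ((a⁻¹ * a') * u' * (a⁻¹ * a')⁻¹) = b * ((a * u * b)⁻¹ * (a' * u' * b')) * b'⁻¹ *
      (a⁻¹ * a')⁻¹ := by group
    rw [this, e, inv_mul_cancel, mul_one]
    exact mul_mem (mul_mem hb (inv_mem hb')) (inv_mem (mul_mem (inv_mem ha) ha'))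
  have e2 : a⁻¹ * a' = 1 := h.eq_one_of_commute_conj h1 (ne_one_of_not_mem hu) huz
    (mul_mem (inv_mem ha) ha') (by rw [e1]; exact huz'.conj _)
  obtain rfl : a = a' := inv_mul_eq_one.1 e2
  rw [e2, one_mul, inv_one, mul_one] at e1
  subst e1
  exact ⟨rfl, rfl, mul_left_cancel e⟩

theorem conj_not_mem {u y : G} (hN : u ∉ N[M]) (huz : Commute u z) (hy : y ∈ M) (h1 : y ≠ 1) :
    u * y * u ∉ N[M] := fun e => h1 (h.eq_one' h.zz h.z_ne hy
      (h.commute_of_conj_mem (h.mul_self hN huz) hN huz (le_normalizer hy) e).symm)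

/-- `C_N(z)` acts semiregularly on `M`. -/
theorem semireg {c y : G} (hc : c ∈ N[M]) (hcz : Commute c z) (hy : y ∈ M) (h1 : y ≠ 1)
    (hcy : Commute c y) : c = 1 := by
  obtain ⟨u, hu, huz⟩ := h.exists_u
  obtain ⟨a, ha, v, hv, b, hb, hvz, e⟩ := h.decomp (h.conj_not_mem hu huz hy h1)
  have h2 : ∀ w ∉ N[M], Commute w z → c * w = w * c⁻¹ := fun w hw hwz => by
    have := h.inverts_K hw hwz (inv_mem hc) hcz.inv_left
    rw [inv_inv] at this
    exact (mul_inv_eq_iff_eq_mul.1 this).symm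
  have h3 : u * c⁻¹ = c * u := (h2 u hu huz).symm
  have e1 : c * (u * y * u) * c⁻¹ = u * y * u := by
    calc c * (u * y * u) * c⁻¹ = (c * u) * y * (u * c⁻¹) := by group
      _ = u * (c⁻¹ * y * c) * u := by rw [h3, h2 u hu huz]; nth_rewrite 2 [h3]; group
      _ = _ := by rw [hcy.inv_mul_cancel]
  have e2 : (c * a * c⁻¹) * (c * v * c⁻¹) * (c * b * c⁻¹) = a * v * b := by
    rw [conj_mul, conj_mul, ← e, e1]
  have e3 := (h.decomp_unique (conj_mem_of_mem_normalizer hc ha) (conj_mem_of_mem_normalizer hc hb)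
    (not_mem_mul (not_mem_mul' hv hc) (inv_mem hc)) ((hcz.mul_left hvz).mul_left hcz.inv_left)
    ha hb hv hvz e2).2.1
  rw [h2 v hv hvz, mul_assoc, mul_eq_left, ← mul_inv_rev, inv_eq_one] at e3
  exact h.eq_one e3 hy h1 hcy

theorem mem_of_commute {c y : G} (hy : y ∈ M) (h1 : y ≠ 1) (hcy : Commute c y) : c ∈ M := by
  obtain ⟨x, hx, d, hd, hdz, rfl⟩ := h.fac c (h.ti c y hy h1 (by rwa [hcy.mul_inv_cancel]))
  have h2 : Commute x⁻¹ y := h.comm (inv_mem hx) hy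
  have h3 := h2.mul_left hcy
  rw [inv_mul_cancel_left] at h3
  rw [h.semireg hd hdz hy h1 h3, mul_one]
  exact hx

omit [Finite G] in
theorem card_N : Nat.card N[M] = Nat.card M * Nat.card ↥(C1[z] ⊓ N[M]) := by
  rw [← Nat.card_prod]
  refine (Nat.card_congr (Equiv.ofBijective (fun p : M × ↥(C1[z] ⊓ N[M]) =>
    (⟨p.1 * p.2, mul_mem (le_normalizer p.1.2) p.2.2.2⟩ : N[M])) ⟨fun p q e => ?_, fun n => ?_⟩)).symm
  · have e1 : (p.1 : G) * p.2 = q.1 * q.2 := congrArg Subtype.val e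
    have e2 : (q.1 : G)⁻¹ * p.1 = q.2 * (p.2 : G)⁻¹ := by
      rw [inv_mul_eq_iff_eq_mul, ← mul_assoc, ← e1, mul_inv_cancel_right]
    have e3 : (q.1 : G)⁻¹ * p.1 = 1 := h.eq_one' h.zz h.z_ne (mul_mem (inv_mem q.1.2) p.1.2) (by
      rw [e2]
      exact (mem_centralizer_singleton_iff.1 (mul_mem q.2.2.1 (inv_mem p.2.2.1))).symm)
    exact Prod.ext (Subtype.ext (inv_mul_eq_one.1 e3).symm)
      (Subtype.ext (mul_inv_eq_one.1 (e2 ▸ e3)).symm)
  · obtain ⟨x, hx, c, hc, hcz, e⟩ := h.fac n n.2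
    exact ⟨(⟨x, hx⟩, ⟨c, mem_centralizer_singleton_iff.2 hcz, hc⟩), Subtype.ext e.symm⟩

theorem card_G : Nat.card G = Nat.card N[M] +
    Nat.card M * Nat.card M * (Nat.card C1[z] - Nat.card ↥(C1[z] ⊓ N[M])) := by
  classical
  have key : ∀ A B : Subgroup G, Nat.card {g : G // g ∈ A ∧ g ∉ B} = Nat.card A - Nat.card ↥(A ⊓ B) := by
    intro A B
    have : {g : G | g ∈ A ∧ g ∉ B} = (A : Set G) \ (A ⊓ B : Subgroup G) := by
      ext g; simp
    change Set.ncard {g : G | g ∈ A ∧ g ∉ B} = Set.ncard (A : Set G) - Set.ncard (SetLike.coe (A ⊓ B))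
    rw [this, Set.ncard_sdiff (fun _ hx => hx.1)]
  have h1 := key ⊤ N[M]
  rw [top_inf_eq, card_top] at h1
  have h2 : Nat.card {g : G // g ∈ (⊤ : Subgroup G) ∧ g ∉ N[M]} =
      Nat.card (M × M × {g : G // g ∈ C1[z] ∧ g ∉ N[M]}) := by
    refine (Nat.card_congr (Equiv.ofBijective (fun p : M × M × {g : G // g ∈ C1[z] ∧ g ∉ N[M]} =>
      (⟨p.1 * p.2.2 * p.2.1, trivial, not_mem_mul (not_mem_mul' p.2.2.2.2 (le_normalizer p.1.2))
        (le_normalizer p.2.1.2)⟩ : {g : G // g ∈ (⊤ : Subgroup G) ∧ g ∉ N[M]}))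
      ⟨fun p q e => ?_, fun g => ?_⟩)).symm
    · obtain ⟨e1, e2, e3⟩ := h.decomp_unique p.1.2 p.2.1.2 p.2.2.2.2
        (mem_centralizer_singleton_iff.1 p.2.2.2.1) q.1.2 q.2.1.2 q.2.2.2.2
        (mem_centralizer_singleton_iff.1 q.2.2.2.1) (congrArg Subtype.val e)
      exact Prod.ext (Subtype.ext e1) (Prod.ext (Subtype.ext e3) (Subtype.ext e2))
    · obtain ⟨a, ha, u, hu, b, hb, huz, e⟩ := h.decomp g.2.2
      exact ⟨(⟨a, ha⟩, ⟨b, hb⟩, ⟨u, mem_centralizer_singleton_iff.2 huz, hu⟩), Subtype.ext e.symm⟩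
  rw [Nat.card_prod, Nat.card_prod, h1, key, ← mul_assoc] at h2
  have := card_le_card_group N[M]
  omega

theorem ncard_invariant (S : Set G) (h1 : ∀ s ∈ S, orderOf s = 2)
    (h2 : ∀ s ∈ S, ∀ g : G, g * s * g⁻¹ ∈ S) :
    S.ncard = Nat.card M * {s ∈ S | Commute s z}.ncard := by
  change Nat.card S = Nat.card M * Nat.card {s ∈ S | Commute s z}
  rw [← Nat.card_prod]
  refine (Nat.card_congr (Equiv.ofBijective (fun p : M × {s ∈ S | Commute s z} =>
    (⟨p.1 * p.2 * (p.1 : G)⁻¹, h2 _ p.2.2.1 _⟩ : S)) ⟨fun p q e => ?_, fun s => ?_⟩)).symm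
  · have e1 : (p.1 : G) * p.2 * (p.1 : G)⁻¹ = q.1 * q.2 * (q.1 : G)⁻¹ := congrArg Subtype.val e
    have e2 : (p.2 : G) = ((p.1 : G)⁻¹ * q.1) * q.2 * ((p.1 : G)⁻¹ * q.1)⁻¹ := by
      calc (p.2 : G) = (p.1 : G)⁻¹ * (p.1 * p.2 * (p.1 : G)⁻¹) * p.1 := by group
        _ = _ := by rw [e1]; group
    have e3 : (p.1 : G)⁻¹ * q.1 = 1 := h.eq_one_of_commute_conj
      (mul_self_of_orderOf_two (h1 _ p.2.2.1)) (ne_one_of_orderOf_two (h1 _ p.2.2.1)) p.2.2.2
      (mul_mem (inv_mem p.1.2) q.1.2) (by rw [e2]; exact q.2.2.2.conj _)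
    exact Prod.ext (Subtype.ext (inv_mul_eq_one.1 e3)) (Subtype.ext (by simpa [e3] using e2))
  · obtain ⟨y, hy, hc⟩ := h.exists_conj_commute (mul_self_of_orderOf_two (h1 _ s.2))
      (ne_one_of_orderOf_two (h1 _ s.2))
    exact ⟨(⟨y, hy⟩, ⟨y⁻¹ * s * y, by simpa using h2 _ s.2 y⁻¹, hc⟩), Subtype.ext (by simp [mul_assoc])⟩

end TIM

end Cfsg.Agent.H11
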