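import Cfsg.Agent.H42.VpDefs

set_option autoImplicit false

namespace Cfsg.Agent.H11.VpF2

open Subgroup Cfsg Cfsg.Agent.H42.Vp
open scoped Pointwise

universe u

theorem f2 : F2Stmt.{u} := by
  intro G _ _ p hp K _ hK hind hK1 hloc hx hZ
  haveI : Fact p.Prime := ⟨hp⟩
  obtain ⟨x, ⟨m, hxm⟩, hxZ⟩ := hx
  obtain ⟨n, hn⟩ := hind
  have hxp : IsPGroup p (zpowers x) := by
    rintro ⟨y, j, rfl⟩
    refine ⟨m, Subtype.ext ?_⟩
    show (x ^ j) ^ p ^ m = 1
    rw [← zpow_natCast, ← zpow_mul, mul_comm, zpow_mul, zpow_natCast, hxm, one_zpow]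
  obtain ⟨P, hP⟩ := hxp.exists_le_sylow
  have hxP : x ∈ (P : Subgroup G) := hP (mem_zpowers x)
  have hZP : center G ≤ (P : Subgroup G) := by
    have h1 : IsPGroup p ((P : Subgroup G) ⊔ center G : Subgroup G) :=
      IsPGroup.to_sup_of_normal_right P.isPGroup' hZ
    have h2 := P.is_maximal' h1 le_sup_left
    rw [← h2]; exact le_sup_right
  have hpel : ∀ a ∈ (P : Subgroup G), ∃ j, a ^ p ^ j = 1 := by
    intro a ha
    obtain ⟨j, hj⟩ := P.isPGroup' ⟨a, ha⟩
    exact ⟨j, congrArg Subtype.val hj⟩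
  have hPK : ∀ a ∈ (P : Subgroup G), a ∈ K → a = 1 := by
    intro a ha haK
    obtain ⟨j, hj⟩ := hpel a ha
    have h1 : orderOf a ∣ p ^ j := orderOf_dvd_of_pow_eq_one hj
    have h2 : orderOf a ∣ Nat.card K := K.orderOf_dvd_natCard haK
    have h3 : (Nat.card K).Coprime (p ^ j) := Nat.Coprime.pow_right j hK
    exact orderOf_eq_one_iff.mp (Nat.eq_one_of_dvd_coprimes h3 h2 h1)
  have htop : K ⊔ (P : Subgroup G) = ⊤ := by
    rw [← index_eq_one]
    have h1 : (K ⊔ (P : Subgroup G)).index ∣ p ^ n := hn ▸ index_dvd_of_le le_sup_left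
    have h2 : (K ⊔ (P : Subgroup G)).index ∣ (P : Subgroup G).index := index_dvd_of_le le_sup_right
    have h3 : (p ^ n).Coprime (P : Subgroup G).index :=
      Nat.Coprime.pow_left n ((Nat.Prime.coprime_iff_not_dvd hp).mpr P.not_dvd_index)
    exact Nat.eq_one_of_dvd_coprimes h3 h1 h2
  have hdec : ∀ g : G, ∃ k ∈ K, ∃ v ∈ (P : Subgroup G), k * v = g := by
    intro g
    have h1 : g ∈ ((K ⊔ (P : Subgroup G) : Subgroup G) : Set G) := by rw [htop]; trivial
    rw [normal_mul] at h1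
    obtain ⟨k, hk, v, hv, h⟩ := h1
    exact ⟨k, hk, v, hv, h⟩
  have hmem : ∀ a : G, (QuotientGroup.mk' (center G) a ∈
      (P : Subgroup G).map (QuotientGroup.mk' (center G))) ↔ a ∈ (P : Subgroup G) := by
    intro a
    constructor
    · rintro ⟨b, hb, hab⟩
      have h1 : b⁻¹ * a ∈ center G := QuotientGroup.eq.mp hab
      have h2 := (P : Subgroup G).mul_mem hb (hZP h1)
      simpa using h2
    · intro ha; exact ⟨a, ha, rfl⟩
  refine ⟨(P : Subgroup G).map (QuotientGroup.mk' (center G)), ⟨?_, ?_, ?_⟩,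
    P.isPGroup'.map _⟩
  · intro h
    have h1 := (hmem x).mpr hxP
    rw [h, mem_bot] at h1
    exact hxZ ((QuotientGroup.eq_one_iff x).mp h1)
  · intro h
    apply hK1
    rw [eq_bot_iff]
    intro k hk
    have h1 : k ∈ (P : Subgroup G) := (hmem k).mp (by rw [h]; trivial)
    exact mem_bot.mpr (hPK k h1 hk)
  · intro gb hg
    obtain ⟨g, rfl⟩ := QuotientGroup.mk'_surjective (center G) gb
    obtain ⟨k, hk, v, hv, rfl⟩ := hdec g
    have hk1 : k ≠ 1 := by
      rintro rfl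
      exact hg ((hmem _).mpr (by simpa using hv))
    rw [eq_bot_iff]
    intro ab hab
    obtain ⟨a, rfl⟩ := QuotientGroup.mk'_surjective (center G) ab
    obtain ⟨h1, h2⟩ := mem_inf.mp hab
    have haP : a ∈ (P : Subgroup G) := (hmem a).mp h1
    rw [mem_pointwise_smul_iff_inv_smul_mem] at h2
    have h3 : (k * v)⁻¹ * a * (k * v) ∈ (P : Subgroup G) := by
      apply (hmem _).mp
      simpa [MulAut.smul_def, mul_assoc] using h2
    have h4 : k⁻¹ * a * k * a⁻¹ ∈ (P : Subgroup G) := by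
      have h5 := (P : Subgroup G).mul_mem ((P : Subgroup G).mul_mem
        ((P : Subgroup G).mul_mem hv h3) ((P : Subgroup G).inv_mem hv)) ((P : Subgroup G).inv_mem haP)
      have e : v * ((k * v)⁻¹ * a * (k * v)) * v⁻¹ * a⁻¹ = k⁻¹ * a * k * a⁻¹ := by group
      rwa [e] at h5
    have h6 : k⁻¹ * a * k * a⁻¹ ∈ K := by
      have h7 := K.mul_mem (K.inv_mem hk) (‹K.Normal›.conj_mem k hk a)
      have e : k⁻¹ * (a * k * a⁻¹) = k⁻¹ * a * k * a⁻¹ := by group
      rwa [e] at h7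
    have h8 := hPK _ h4 h6
    have hc : Commute a k := by
      show a * k = k * a
      calc a * k = k * (k⁻¹ * a * k * a⁻¹) * a := by group
        _ = k * a := by rw [h8, mul_one]
    have h9 := hloc a (hpel a haP) k hk hk1 hc
    exact mem_bot.mpr ((QuotientGroup.eq_one_iff a).mpr h9)

end Cfsg.Agent.H11.VpF2
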